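import Cfsg.Agent.H9.B2.Link

/-!
Modules for `L₂(9)` over the field with three elements.
-/

set_option autoImplicit false
set_option linter.unusedSectionVars false
set_option linter.unusedSimpArgs false
set_option linter.style.haveILetI false
set_option maxRecDepth 100000

namespace Cfsg.Agent.H9.B2

open Module Matrix Polynomial Cfsg.Agent.H9.SL2 Cfsg.Agent.H9.Ch
open scoped MatrixGroups TensorProduct

theorem cnt_bind {p : ℤ → Prop} [DecidablePred p] {L : Multiset ℕ} (h : ∀ k ∈ L, k < 9) (n : List ℕ)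
    (hn : ∀ k < 9, (Wl 2 k).countP p = n.getD k 0) :
    (L.bind (wts K3)).countP p = ∑ k ∈ Finset.range 9, L.count k * n.getD k 0 := by
  induction L using Multiset.induction_on with
  | empty => simp
  | cons a L ih =>
    have ha := h a (Multiset.mem_cons_self _ _)
    rw [Multiset.cons_bind, Multiset.countP_add, ih fun k hk => h k (Multiset.mem_cons_of_mem hk),
      wts_eq 2 a ha, Multiset.coe_countP, hn a ha]
    simp [Multiset.count_cons, add_mul, Finset.sum_add_distrib, ha, add_comm]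

theorem PP_pow {K : Type*} [Field K] (a : K) (k : ℕ) (s : Multiset ℤ) :
    PP (a ^ k) s = PP a (s.map (k * ·)) := by
  simp only [PP, Multiset.map_map, Function.comp_def, ← zpow_natCast, ← _root_.zpow_mul]

theorem a6 {F V : Type*} [Field F] [Fintype F] (hF : Fintype.card F = 9) [AddCommGroup V]
    [Module (ZMod 3) V] [FiniteDimensional (ZMod 3) V] (ρ : SL(2, F) →* End (ZMod 3) V) {u : Fˣ}
    (hu : IsPrimitiveRoot (u : F) 8) (h : ρ (tt u) ^ 4 = 1) : ∃ a b c d : ℕ,
      finrank (ZMod 3) V = a + 4 * b + 6 * c + 9 * d ∧ bt ⊤ (ρ (tt u) ^ 2) = a - 2 * c + d ∧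
      bt ⊤ (ρ (tt u)) = a - 2 * b + 2 * c + d := by
  haveI : Fact (Nat.Prime 3) := ⟨Nat.prime_three⟩
  haveI : CharP F 3 := charP_of_card_eq_prime_pow (p := 3) (f := 2) hF
  letI := ZMod.algebra F 3
  let ι : F →+* K3 := (IsAlgClosed.lift : F →ₐ[ZMod 3] K3).toRingHom
  let ρ' : Representation K3 SL(2, F) (K3 ⊗[ZMod 3] V) :=
    (Module.End.baseChangeHom (ZMod 3) K3 V).toMonoidHom.comp ρ
  have hρ : ∀ g, (ρ' g).charpoly = (ρ g).charpoly.map (algebraMap _ _) := fun g =>
    LinearMap.charpoly_baseChange _ _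
  obtain ⟨L, h1, h2⟩ := factors ι ρ'
  rw [hF] at h1
  have h3 : L.count 2 = L.count 6 := by
    haveI : NeZero ((10 : ℕ) : K3) := ⟨by rw [Ne, CharP.cast_eq_zero_iff K3 3]; norm_num⟩
    obtain ⟨a, ha⟩ := HasEnoughRootsOfUnity.exists_primitiveRoot K3 10
    have h0 := ha.ne_zero (by norm_num)
    obtain ⟨y, g, g', e1, e2⟩ := exists_elt ι h0 (ha.pow_ne_one_of_pos_of_lt two_ne_zero (by norm_num))
      (.inr (by rw [hF]; exact ha.pow_eq_one))
    have h4 := (h2 _ g g' a a⁻¹ e1 e2).trans (prod_J h0 L)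
    have h5 : (ρ' (rr y)).charpoly.map (frobenius K3 3) = (ρ' (rr y)).charpoly := by
      rw [hρ, Polynomial.map_map, RingHom.ext_zmod ((frobenius K3 3).comp _) (algebraMap _ _)]
    rw [h4, PP_map _ 3 (fun _ => rfl)] at h5
    have h6 := congrArg (Multiset.countP (· = 6)) (PP_inj (by norm_num) ha h5)
    simp only [Multiset.map_map, Multiset.countP_map, ← Multiset.countP_eq_card_filter] at h6
    rw [cnt_bind h1 [0, 0, 1, 0, 1, 0, 0, 0, 2] (by decide), cnt_bind h1 [0, 0, 0, 0, 1, 0, 1, 0, 2] (by decide)] at h6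
    simp only [Finset.sum_range_succ, Finset.sum_range_zero, List.getD_cons_succ, List.getD_cons_zero] at h6
    omega
  have ha : IsPrimitiveRoot (ι u)⁻¹ 8 := (hu.map_of_injective ι.injective).inv
  have h4 : ∀ k : ℕ, finrank (ZMod 3) (fx (ρ (tt u) ^ k)) = (L.bind (wts K3)).countP ((k : ℤ) * · % 8 = 0) ∧
      finrank (ZMod 3) (fx (-ρ (tt u) ^ k)) = (L.bind (wts K3)).countP ((k : ℤ) * · % 8 = 4) := fun k => by
    have h5 := h2 (tt u ^ k) 1 1 ((ι u)⁻¹ ^ k) ((ι u)⁻¹ ^ k)⁻¹ (mul_one _) (by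
      rw [one_mul, mul_one, show (tt u ^ k).1 = (tt u).1 ^ k from Matrix.SpecialLinearGroup.coe_pow (tt u) k,
        ← RingHom.mapMatrix_apply, map_pow,
        show ι.mapMatrix (tt u).1 = diagonal ![(ι u)⁻¹, ι u] by
          ext i j; fin_cases i <;> fin_cases j <;> simp, diagonal_pow]
      ext i j; fin_cases i <;> fin_cases j <;> simp)
    rw [prod_J (pow_ne_zero _ (ha.ne_zero (by norm_num))), PP_pow, hρ, map_pow] at h5
    have := fx_count (M := 4) (by norm_num) (by rw [pow_right_comm, h, one_pow]) (by norm_num) ha h5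
    simpa only [Multiset.countP_map, ← Multiset.countP_eq_card_filter, forall_const, Nat.cast_ofNat] using this
  have h5 := (h4 0).1
  have h6 := (h4 4).1
  have h7 := h4 1
  have h8 := h4 2
  rw [pow_zero, ← h, h6] at h5
  rw [h, show fx (1 : End (ZMod 3) V) = ⊤ from eq_top_iff.2 fun v _ => mem_fx.2 rfl, finrank_top] at h6
  rw [pow_one] at h7
  rw [bt_top, bt_top, h6, h7.1, h7.2, h8.1, h8.2]
  refine ⟨L.count 0, L.count 4, L.count 2, L.count 8, ?_⟩
  rw [cnt_bind h1 [1, 0, 3, 0, 4, 0, 3, 0, 9] (by decide), cnt_bind h1 [1, 2, 3, 2, 4, 6, 3, 6, 9] (by decide)] at h5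
  rw [cnt_bind h1 [1, 0, 3, 0, 4, 0, 3, 0, 9] (by decide), cnt_bind h1 [1, 0, 1, 0, 2, 0, 1, 0, 5] (by decide),
    cnt_bind h1 [0, 0, 2, 0, 2, 0, 2, 0, 4] (by decide), cnt_bind h1 [1, 0, 1, 0, 0, 0, 1, 0, 3] (by decide),
    cnt_bind h1 [0, 0, 0, 0, 2, 0, 0, 0, 2] (by decide)]
  simp only [Finset.sum_range_succ, Finset.sum_range_zero, List.getD_cons_succ, List.getD_cons_zero] at h5 ⊢
  omega

theorem sl2_gen {F : Type*} [Field F] [Fintype F] {H : Subgroup SL(2, F)} (h1 : ∀ x, uu x ∈ H) (h2 : ∀ x, ll x ∈ H)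
    (g : SL(2, F)) : g ∈ H := by
  have key : ∀ g : SL(2, F), g 1 0 ≠ 0 → g ∈ H := fun g h => by
    have e := det2 g
    have : g = uu ((g 0 0 - 1) / g 1 0) * ll (g 1 0) * uu ((g 1 1 - 1) / g 1 0) := by
      ext i j
      fin_cases i <;> fin_cases j <;> simp [mul_apply] <;> field_simp
      · ring
      · linear_combination -e
      · ring
    exact this ▸ H.mul_mem (H.mul_mem (h1 _) (h2 _)) (h1 _)
  by_cases h : g 1 0 = 0
  · refine (H.mul_mem_cancel_right (h2 1)).1 (key _ ?_)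
    have e := det2 g
    rw [mul_10, h]
    rw [h, mul_zero, sub_zero] at e
    simpa using right_ne_zero_of_mul_eq_one e
  · exact key g h

theorem bt_restrict {K V : Type*} [Field K] [AddCommGroup V] [Module K V] [FiniteDimensional K V]
    {W : Submodule K V} {f : End K V} (h : ∀ v ∈ W, f v ∈ W) : bt ⊤ (f.restrict h) = bt W f := by
  have key : ∀ (f : End K V) (h : ∀ v ∈ W, f v ∈ W),
      finrank K (fx (f.restrict h)) = finrank K ↥(W ⊓ fx f) := fun f h => by
    have : (fx (f.restrict h)).map W.subtype = W ⊓ fx f := by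
      ext v
      simp only [Submodule.mem_map, mem_fx, Submodule.mem_inf, Subtype.ext_iff, LinearMap.coe_restrict_apply]
      exact ⟨fun ⟨w, h1, h2⟩ => h2 ▸ ⟨w.2, h1⟩, fun h1 => ⟨⟨v, h1.1⟩, h1.2, rfl⟩⟩
    rw [← Submodule.finrank_map_subtype_eq, this]
  rw [bt_top, key, bt, ← key (-f) fun v hv => W.neg_mem (h v hv)]
  rfl

end Cfsg.Agent.H9.B2
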