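import Mathlib

/-!
Rational Brauer traces and averaging over `2`-groups.
-/

set_option autoImplicit false
set_option linter.unusedSectionVars false
set_option linter.unusedSimpArgs false

namespace Cfsg.Agent.H9.B2

open Module

variable {K V : Type*} [Field K] [AddCommGroup V] [Module K V] [FiniteDimensional K V]

/-- The fixed space. -/
def fx (f : End K V) : Submodule K V := LinearMap.ker (f - 1)

@[simp] theorem mem_fx {f : End K V} {v : V} : v ∈ fx f ↔ f v = v := by simp [fx, sub_eq_zero]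

theorem eq_zero_of (h2 : (2 : K) ≠ 0) {v : V} (h : -v = v) : v = 0 := by
  have : (2 : K) • v = 0 := by rw [two_smul]; nth_rw 1 [← h]; simp
  exact (smul_eq_zero.1 this).resolve_left h2

theorem split (h2 : (2 : K) ≠ 0) {S : Submodule K V} {z : End K V}
    (h : ∀ v ∈ S, z v ∈ S ∧ z (z v) = v) :
    finrank K S = finrank K ↥(S ⊓ fx z) + finrank K ↥(S ⊓ fx (-z)) := by
  have h1 : (S ⊓ fx z) ⊓ (S ⊓ fx (-z)) = ⊥ := eq_bot_iff.2 fun v hv => by
    have h3 : z v = v := mem_fx.1 hv.1.2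
    have h4 : -z v = v := mem_fx.1 hv.2.2
    exact eq_zero_of h2 (by rwa [h3] at h4)
  have h3 : (S ⊓ fx z) ⊔ (S ⊓ fx (-z)) = S := le_antisymm (sup_le inf_le_left inf_le_left)
    fun v hv => Submodule.mem_sup.2 ⟨(2 : K)⁻¹ • (v + z v),
      ⟨S.smul_mem _ (S.add_mem hv (h v hv).1), by simp [(h v hv).2, add_comm]⟩, (2 : K)⁻¹ • (v - z v),
      ⟨S.smul_mem _ (S.sub_mem hv (h v hv).1), by simp [(h v hv).2, ← smul_neg]⟩, by
      rw [← smul_add, add_add_sub_cancel, ← two_smul K, smul_smul, inv_mul_cancel₀ h2, one_smul]⟩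
  rw [← Submodule.finrank_sup_add_finrank_inf_eq, h1, h3, finrank_bot, add_zero]

/-- The rational part of the Brauer trace. -/
noncomputable def bt (W : Submodule K V) (f : End K V) : ℤ :=
  finrank K ↥(W ⊓ fx f) - finrank K ↥(W ⊓ fx (-f))

theorem bt_top (f : End K V) : bt ⊤ f = finrank K (fx f) - finrank K (fx (-f)) := by
  rw [bt, top_inf_eq, top_inf_eq]

theorem bt_one (h2 : (2 : K) ≠ 0) (W : Submodule K V) : bt W 1 = finrank K W := by
  have h1 : W ⊓ fx (-1) = ⊥ := eq_bot_iff.2 fun v hv => eq_zero_of h2 (mem_fx.1 hv.2)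
  have h3 : W ⊓ fx 1 = W := inf_eq_left.2 fun v _ => mem_fx.2 rfl
  rw [bt, h1, h3]; simp

theorem step (h2 : (2 : K) ≠ 0) {W : Submodule K V} {f z : End K V}
    (h : ∀ v ∈ W, z v ∈ W ∧ z (z v) = v ∧ f (z v) = z (f v)) :
    bt W f + bt W (f * z) = 2 * bt (W ⊓ fx z) f := by
  have h1 : ∀ f : End K V, (∀ v ∈ W, f (z v) = z (f v)) →
      finrank K ↥(W ⊓ fx f) = finrank K ↥(W ⊓ fx z ⊓ fx f) + finrank K ↥(W ⊓ fx (-z) ⊓ fx f) ∧
      finrank K ↥(W ⊓ fx (f * z)) =
        finrank K ↥(W ⊓ fx z ⊓ fx f) + finrank K ↥(W ⊓ fx (-z) ⊓ fx (-f)) := fun f hf => by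
    constructor
    · rw [split h2 (S := W ⊓ fx f) (z := z) fun v hv => ⟨⟨(h v hv.1).1,
        mem_fx.2 (by rw [hf v hv.1, mem_fx.1 hv.2])⟩,
        (h v hv.1).2.1⟩, inf_right_comm, inf_right_comm W (fx f)]
    · rw [split h2 (S := W ⊓ fx (f * z)) (z := z) fun v hv => ⟨⟨(h v hv.1).1, mem_fx.2 (by
        have : f (z v) = v := mem_fx.1 hv.2
        rw [End.mul_apply, hf _ (h v hv.1).1, this])⟩, (h v hv.1).2.1⟩]
      have e1 : W ⊓ fx (f * z) ⊓ fx z = W ⊓ fx z ⊓ fx f := by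
        ext v
        simp only [Submodule.mem_inf, mem_fx, End.mul_apply, and_assoc, and_congr_right_iff]
        exact fun _ => ⟨fun ⟨a, b⟩ => ⟨b, by rwa [b] at a⟩, fun ⟨a, b⟩ => ⟨by rwa [a], a⟩⟩
      have e2 : W ⊓ fx (f * z) ⊓ fx (-z) = W ⊓ fx (-z) ⊓ fx (-f) := by
        ext v
        simp only [Submodule.mem_inf, mem_fx, End.mul_apply, and_assoc, and_congr_right_iff,
          LinearMap.neg_apply, neg_eq_iff_eq_neg]
        exact fun _ => ⟨fun ⟨a, b⟩ => ⟨b, by rwa [b, map_neg, neg_eq_iff_eq_neg] at a⟩,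
          fun ⟨a, b⟩ => ⟨by rw [a, map_neg, b, neg_neg], a⟩⟩
      rw [e1, e2]
  have h3 := h1 f fun v hv => (h v hv).2.2
  have h4 := h1 (-f) fun v hv => by simp [(h v hv).2.2]
  rw [neg_neg, neg_mul] at h4
  unfold bt
  omega

theorem fx_conj {f g h : End K V} (hu : IsUnit h) (e : h * f = g * h) :
    finrank K (fx f) = finrank K (fx g) := by
  have key : ∀ f g h : End K V, IsUnit h → h * f = g * h → finrank K (fx f) ≤ finrank K (fx g) :=
    fun f g h hu e => LinearMap.finrank_le_finrank_of_injective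
      (f := h.restrict (p := fx f) (q := fx g) fun v hv => mem_fx.2 (by
        rw [← End.mul_apply, ← e, End.mul_apply, mem_fx.1 hv]))
      fun v w h1 => Subtype.ext (((End.isUnit_iff h).1 hu).1 (congrArg Subtype.val h1))
  obtain ⟨u, rfl⟩ := hu
  refine le_antisymm (key _ _ _ u.isUnit e) (key _ _ _ u⁻¹.isUnit ?_)
  rw [Units.inv_mul_eq_iff_eq_mul, ← mul_assoc, e, Units.mul_inv_cancel_right]

theorem bt_conj {f g h : End K V} (hu : IsUnit h) (e : h * f = g * h) : bt ⊤ f = bt ⊤ g := by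
  rw [bt_top, bt_top, fx_conj hu e, fx_conj hu (f := -f) (g := -g) (by simp [e])]

theorem eq_one_of_bt {f : End K V} (h : bt ⊤ f = finrank K V) : f = 1 := by
  have h1 := (fx f).finrank_le
  rw [bt_top] at h
  exact LinearMap.ext fun v => mem_fx.1
    (Submodule.eq_top_of_finrank_eq (S := fx f) (by omega) ▸ Submodule.mem_top)

theorem dih {f t : End K V} {n : ℕ} (hn : ((2 * n + 1 : ℕ) : K) ≠ 0) (hf : f ^ (2 * n + 1) = 1)
    (e : f * t * f = t) :
    bt ⊤ t ≤ (finrank K ↥(fx f ⊓ fx t) : ℤ) - finrank K ↥(fx f ⊓ fx (-t)) := by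
  have e1 : t * f ^ (2 * n) = f * t := by rw [← e, mul_assoc _ f, ← pow_succ', hf, mul_one, e]
  have e2 : f ^ (2 * n) * t = t * f := by
    rw [← e, ← mul_assoc, ← mul_assoc, ← pow_succ, hf, one_mul, e]
  let y : End K V := f - f ^ (2 * n)
  have h1 : ∀ v ∈ fx t, y v ∈ fx (-t) := fun v hv => mem_fx.2 (by
    have h := mem_fx.1 hv
    simp only [y, LinearMap.neg_apply, LinearMap.sub_apply, map_sub, neg_sub]
    rw [← End.mul_apply t, ← End.mul_apply t, e1, ← e2, End.mul_apply, End.mul_apply, h]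
    abel)
  have h2 := (y.domRestrict (fx t)).finrank_range_add_finrank_ker
  have h3 : finrank K (LinearMap.ker (y.domRestrict (fx t))) ≤ finrank K ↥(fx f ⊓ fx t) := by
    rw [← Submodule.finrank_map_subtype_eq]
    refine Submodule.finrank_mono ?_
    rintro _ ⟨⟨v, hv⟩, h4, rfl⟩
    have h5 : f v = (f ^ (2 * n)) v := sub_eq_zero.1 h4
    have h6 : (f ^ 2) v = v := by
      rw [sq, End.mul_apply, h5, ← End.mul_apply, ← pow_succ', hf, End.one_apply]
    refine ⟨mem_fx.2 (h5.trans ?_), hv⟩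
    rw [pow_mul, End.pow_apply]
    exact Function.iterate_fixed h6 n
  have h4 : LinearMap.range (y.domRestrict (fx t)) ⊓ (fx f ⊓ fx (-t)) = ⊥ := by
    rw [eq_bot_iff]
    rintro _ ⟨⟨⟨v, hv⟩, rfl⟩, h5, -⟩
    have h6 : ∀ k, (f ^ k) (y v) = y v := fun k => by
      rw [End.pow_apply]; exact Function.iterate_fixed (mem_fx.1 h5) k
    have h7 : (∑ k ∈ Finset.range (2 * n + 1), f ^ k) * y = 0 := by
      have h8 : (∑ k ∈ Finset.range (2 * n + 1), f ^ k) * f = ∑ k ∈ Finset.range (2 * n + 1), f ^ k := by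
        rw [← sub_eq_zero, ← mul_sub_one, geom_sum_mul, hf, sub_self]
      rw [mul_sub, h8, sub_eq_zero]
      generalize 2 * n = m at h8 ⊢
      generalize (∑ k ∈ Finset.range (m + 1), f ^ k) = s at h8
      induction m with
      | zero => simp
      | succ m ih => rw [pow_succ, ← mul_assoc, ← ih, h8]
    have := congrArg (· v) h7
    simp only [End.mul_apply, LinearMap.sum_apply, h6, Finset.sum_const, Finset.card_range,
      LinearMap.zero_apply, ← Nat.cast_smul_eq_nsmul K, smul_eq_zero] at this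
    exact this.resolve_left hn
  have h5 := Submodule.finrank_sup_add_finrank_inf_eq (LinearMap.range (y.domRestrict (fx t)))
    (fx f ⊓ fx (-t))
  have h6 : finrank K ↥(LinearMap.range (y.domRestrict (fx t)) ⊔ fx f ⊓ fx (-t)) ≤
      finrank K (fx (-t)) := Submodule.finrank_mono (sup_le (by
    rintro _ ⟨⟨v, hv⟩, rfl⟩; exact h1 v hv) inf_le_right)
  rw [h4, finrank_bot] at h5
  rw [bt_top]
  omega

/-- Membership in a list. -/
noncomputable def mem (x : ℕ) (l : List ℕ) : Bool := List.rec false (fun y _ ih => Nat.beq x y || ih) l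

theorem mem_sound {x : ℕ} {l : List ℕ} (h : mem x l = true) : x ∈ l := by
  induction l with
  | nil => exact absurd h (by simp [mem])
  | cons y l ih =>
    have h : (Nat.beq x y || mem x l) = true := h
    rw [Bool.or_eq_true, Nat.beq_eq] at h
    exact List.mem_cons.2 (h.imp_right ih)

/-- Codes for endomorphisms. -/
structure Sys (K V : Type*) [Field K] [AddCommGroup V] [Module K V] (mm : ℕ → ℕ → ℕ) (Z : List ℕ) where
  /-- The valid codes. -/
  Ok : ℕ → Prop
  /-- The values. -/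
  σ : ℕ → End K V
  mul : ∀ {a b}, Ok a → Ok b → Ok (mm a b) ∧ σ (mm a b) = σ a * σ b
  unit : ∀ {a}, Ok a → IsUnit (σ a)
  cen : ∀ z ∈ Z, Ok z ∧ σ z = 1

section
variable (mm : ℕ → ℕ → ℕ) (Z : List ℕ)

/-- Words. -/
inductive Gen (gs : List ℕ) : ℕ → Prop
  | of {g} : g ∈ gs → Gen gs g
  | mul {a b} : Gen gs a → Gen gs b → Gen gs (mm a b)

/-- The elements of a `2`-group. -/
def El : List ℕ → List ℕ
  | [] => Z
  | z :: zs => El zs ++ (El zs).map (mm z)

/-- The elements of a coset. -/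
def Cs : List ℕ → ℕ → List ℕ
  | [], f => [f]
  | z :: zs, f => Cs zs f ++ Cs zs (mm f z)

/-- The test for a central series. -/
noncomputable def good (gs : List ℕ) : List ℕ → Bool
  | [] => true
  | z :: zs => good gs zs && mem z gs && mem (mm z z) (El mm Z zs) &&
      gs.all fun g => mem (mm g z) ((El mm Z zs).map (mm (mm z g)))

/-- The test for conjugacy. -/
noncomputable def cj (vld : ℕ → Bool) (ev rp : ℕ → ℕ) : List ℕ → List ℕ → Bool
  | [], [] => true
  | c :: L, d :: D => vld (d / 8) && mem (mm (ev (d / 8)) c) (Z.map fun z =>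
      mm z (mm (rp (d % 8)) (ev (d / 8)))) && cj vld ev rp L D
  | _, _ => false

end

variable {mm : ℕ → ℕ → ℕ} {Z : List ℕ} (S : Sys K V mm Z)

/-- The fixed spaces. -/
def Sys.W : List ℕ → Submodule K V
  | [] => ⊤
  | z :: zs => Sys.W zs ⊓ fx (S.σ z)

theorem Sys.mem_W {zs : List ℕ} {v : V} : v ∈ S.W zs ↔ ∀ z ∈ zs, S.σ z v = v := by
  induction zs with
  | nil => simp [Sys.W]
  | cons z zs ih => simp [Sys.W, ih, and_comm]

theorem Sys.gen {gs : List ℕ} (h : ∀ g ∈ gs, S.Ok g) {f : ℕ} (hf : Gen mm gs f) : S.Ok f := by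
  induction hf with
  | of h1 => exact h _ h1
  | mul _ _ h1 h2 => exact (S.mul h1 h2).1

theorem Sys.el {zs : List ℕ} (h : ∀ z ∈ zs, S.Ok z) {x : ℕ} (hx : x ∈ El mm Z zs) :
    S.Ok x ∧ ∀ v ∈ S.W zs, S.σ x v = v := by
  induction zs generalizing x with
  | nil => exact ⟨(S.cen x hx).1, fun v _ => by rw [(S.cen x hx).2]; rfl⟩
  | cons z zs ih =>
    have ih := @ih fun z hz => h z (List.mem_cons_of_mem _ hz)
    rcases List.mem_append.1 hx with hx | hx
    · exact ⟨(ih hx).1, fun v hv => (ih hx).2 v hv.1⟩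
    · obtain ⟨y, hy, rfl⟩ := List.mem_map.1 hx
      have := S.mul (h z List.mem_cons_self) (ih hy).1
      exact ⟨this.1, fun v hv => by rw [this.2, End.mul_apply, (ih hy).2 v hv.1, mem_fx.1 hv.2]⟩

theorem Sys.comm {zs : List ℕ} (h : ∀ z ∈ zs, S.Ok z) {a b : ℕ} (hb : S.Ok b)
    (e : mem a ((El mm Z zs).map (mm b)) = true) {v : V} (hv : v ∈ S.W zs) : S.σ a v = S.σ b v := by
  obtain ⟨y, hy, rfl⟩ := List.mem_map.1 (mem_sound e)
  rw [(S.mul hb (S.el h hy).1).2, End.mul_apply, (S.el h hy).2 v hv]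

theorem Sys.avg (h2 : (2 : K) ≠ 0) {gs : List ℕ} (h : ∀ g ∈ gs, S.Ok g) {zs : List ℕ}
    (hz : good mm Z gs zs = true) : (∀ z ∈ zs, z ∈ gs) ∧
    (∀ v, ((El mm Z zs).map fun x => S.σ x v).sum ∈ S.W zs) ∧ ∀ f, Gen mm gs f →
      (∀ v ∈ S.W zs, S.σ f v ∈ S.W zs) ∧
      2 ^ zs.length * bt (S.W zs) (S.σ f) = ((Cs mm zs f).map fun c => bt ⊤ (S.σ c)).sum := by
  induction zs with
  | nil => simp [Sys.W, Cs]
  | cons z zs ih =>
    simp only [good, Bool.and_eq_true, List.all_eq_true] at hz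
    obtain ⟨⟨⟨h3, h4⟩, h5⟩, h6⟩ := hz
    obtain ⟨h7, h8, h9⟩ := ih h3
    have h4 := mem_sound h4
    have h10 : ∀ z ∈ zs, S.Ok z := fun z hz => h z (h7 z hz)
    have h11 : ∀ f, Gen mm gs f → ∀ v ∈ S.W zs, S.σ f (S.σ z v) = S.σ z (S.σ f v) := fun f hf => by
      induction hf with
      | of hg =>
        intro v hv
        have e1 := S.mul (h _ hg) (h z h4)
        have e2 := S.mul (h z h4) (h _ hg)
        rw [← End.mul_apply, ← End.mul_apply, ← e1.2, ← e2.2, S.comm h10 e2.1 (h6 _ hg) hv]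
      | mul ha hb iha ihb =>
        intro v hv
        rw [(S.mul (S.gen h ha) (S.gen h hb)).2, End.mul_apply, End.mul_apply, ihb v hv,
          iha _ ((h9 _ hb).1 v hv)]
    have h12 : ∀ v ∈ S.W zs, S.σ z (S.σ z v) = v := fun v hv => by
      rw [← End.mul_apply, ← (S.mul (h z h4) (h z h4)).2, (S.el h10 (mem_sound h5)).2 v hv]
    refine ⟨by simpa [h4] using h7, fun v => ?_, fun f hf => ⟨fun v hv => ⟨(h9 f hf).1 v hv.1,
      mem_fx.2 (by rw [← h11 f hf v hv.1, mem_fx.1 hv.2])⟩, ?_⟩⟩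
    · have : (((El mm Z zs).map (mm z)).map fun x => S.σ x v).sum =
          S.σ z ((El mm Z zs).map fun x => S.σ x v).sum := by
        rw [map_list_sum, List.map_map, List.map_map]
        exact congrArg _ (List.map_congr_left fun x hx => by
          simp [(S.mul (h z h4) (S.el h10 hx).1).2])
      rw [El, List.map_append, List.sum_append, this]
      exact ⟨add_mem (h8 v) ((h9 z (.of h4)).1 _ (h8 v)), mem_fx.2 (by
        rw [map_add, h12 _ (h8 v), add_comm])⟩
    rw [Cs, List.map_append, List.sum_append, ← (h9 f hf).2, ← (h9 _ (hf.mul (.of h4))).2,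
      (S.mul (S.gen h hf) (h z h4)).2, ← mul_add, step h2 fun v hv =>
        ⟨(h9 z (.of h4)).1 v hv, h12 v hv, h11 f hf v hv⟩, List.length_cons, pow_succ, mul_assoc]
    rfl

theorem Sys.cs {zs : List ℕ} (h : ∀ z ∈ zs, S.Ok z) {f : ℕ} (hf : S.Ok f) :
    ∀ c ∈ Cs mm zs f, S.Ok c := by
  induction zs generalizing f with
  | nil => simpa [Cs]
  | cons z zs ih =>
    have ih := @ih fun z hz => h z (List.mem_cons_of_mem _ hz)
    exact fun c hc => (List.mem_append.1 hc).elim (ih hf c)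
      (ih (S.mul hf (h z List.mem_cons_self)).1 c)

theorem Sys.cj {vld : ℕ → Bool} {ev rp : ℕ → ℕ} (h : ∀ d, vld d = true → S.Ok (ev d))
    (hr : ∀ k < 8, S.Ok (rp k)) {L D : List ℕ} (hL : ∀ c ∈ L, S.Ok c)
    (e : cj mm Z vld ev rp L D = true) :
    (L.map fun c => bt ⊤ (S.σ c)).sum = ∑ k ∈ Finset.range 8,
      (D.map (· % 8)).count k * bt ⊤ (S.σ (rp k)) := by
  induction L generalizing D with
  | nil => cases D <;> simp_all [B2.cj]
  | cons c L ih =>
    rcases D with _ | ⟨d, D⟩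
    · simp [B2.cj] at e
    simp only [B2.cj, Bool.and_eq_true] at e
    obtain ⟨z, hz, h1⟩ := List.mem_map.1 (mem_sound e.1.2)
    have h3 := h _ e.1.1
    have h4 := S.mul (hr _ (Nat.mod_lt d (by norm_num))) h3
    have h5 := congrArg S.σ h1
    rw [(S.mul (S.cen z hz).1 h4.1).2, (S.cen z hz).2, one_mul, h4.2,
      (S.mul h3 (hL c List.mem_cons_self)).2] at h5
    rw [List.map_cons, List.sum_cons, ih (fun c hc => hL c (List.mem_cons_of_mem _ hc)) e.2,
      bt_conj (S.unit h3) h5.symm]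
    simp only [List.map_cons, List.count_cons, Nat.cast_add, add_mul, Finset.sum_add_distrib,
      beq_iff_eq, Nat.cast_ite, ite_mul, Nat.cast_one, one_mul, Nat.cast_zero, zero_mul,
      Finset.sum_ite_eq, Finset.mem_range, Nat.mod_lt d (show 0 < 8 by norm_num), if_true, add_comm]

end Cfsg.Agent.H9.B2
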