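import Cfsg.Agent.H9.B2.Avg

/-!
Matrices over small fields coded by natural numbers.
-/

set_option autoImplicit false
set_option linter.unusedSectionVars false
set_option linter.unusedSimpArgs false

namespace Cfsg.Agent.H9.B2

open Module

/-- Evaluate an argument first. -/
noncomputable def frc (x : ℕ) (k : ℕ → ℕ) : ℕ := Nat.rec (k 0) (fun n _ => k (Nat.succ n)) x

theorem frc_eq (x : ℕ) (k : ℕ → ℕ) : frc x k = k x := by cases x <;> rfl

theorem mod_eq (a b : ℕ) : Nat.mod a b = a % b := rfl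

theorem div_eq (a b : ℕ) : Nat.div a b = a / b := rfl

/-- A digit. -/
def ent (w c p : ℕ) : ℕ := Nat.mod (Nat.shiftRight c (Nat.mul w p)) (Nat.pow 2 w)

theorem ent_eq (w c p : ℕ) : ent w c p = c / 2 ^ (w * p) % 2 ^ w :=
  congrArg (· % 2 ^ w) (Nat.shiftRight_eq_div_pow _ _)

theorem ent_lt (w c p : ℕ) : ent w c p < 2 ^ w := Nat.mod_lt _ (Nat.two_pow_pos w)

/-- The number with given digits. -/
noncomputable def pack (w : ℕ) (f : ℕ → ℕ) (m : ℕ) : ℕ :=
  Nat.rec 0 (fun p acc => Nat.add acc (Nat.shiftLeft (f p) (Nat.mul w p))) m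

theorem pack_succ (w : ℕ) (f : ℕ → ℕ) (m : ℕ) : pack w f (m + 1) = pack w f m + f m * 2 ^ (w * m) :=
  congrArg (pack w f m + ·) (Nat.shiftLeft_eq _ _)

theorem ent_pack {w : ℕ} {f : ℕ → ℕ} (hf : ∀ p, f p < 2 ^ w) (m : ℕ) :
    pack w f m < 2 ^ (w * m) ∧ ∀ p < m, ent w (pack w f m) p = f p := by
  induction m with
  | zero => simp [pack]
  | succ m ih =>
    rw [pack_succ]
    refine ⟨?_, fun p hp => ?_⟩
    · have := Nat.mul_le_mul_right (2 ^ (w * m)) (hf m)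
      rw [Nat.succ_mul] at this
      rw [mul_add, mul_one, pow_add, mul_comm (2 ^ (w * m))]
      omega
    rcases Nat.lt_succ_iff_lt_or_eq.1 hp with hp | rfl
    · obtain ⟨d, rfl⟩ := Nat.exists_eq_add_of_lt hp
      rw [← ih.2 p hp, ent_eq, ent_eq, show f (p + d + 1) * 2 ^ (w * (p + d + 1)) =
        f (p + d + 1) * 2 ^ (w * d) * 2 ^ w * 2 ^ (w * p) by ring,
        Nat.add_mul_div_right _ _ (by positivity), Nat.add_mul_mod_self_right]
    · rw [ent_eq, Nat.add_mul_div_right _ _ (by positivity), Nat.div_eq_of_lt ih.1, zero_add,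
        Nat.mod_eq_of_lt (hf _)]

/-- Sums. -/
noncomputable def sm (n : ℕ) (f : ℕ → ℕ) : ℕ := Nat.rec 0 (fun k acc => Nat.add acc (f k)) n

theorem sm_eq (n : ℕ) (f : ℕ → ℕ) : sm n f = ∑ k ∈ Finset.range n, f k := by
  induction n with
  | zero => rfl
  | succ n ih => rw [Finset.sum_range_succ, ← ih]; rfl

/-- The product of matrices. -/
noncomputable def mmul (w n : ℕ) (dot : (ℕ → ℕ) → (ℕ → ℕ) → ℕ) (a b : ℕ) : ℕ :=
  frc a fun a => frc b fun b => pack w (fun p => frc (Nat.mul n (Nat.div p n)) fun i =>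
    frc (Nat.mod p n) fun j => dot (fun k => ent w a (Nat.add i k))
    fun k => ent w b (Nat.add (Nat.mul n k) j)) (Nat.mul n n)

/-- The transpose. -/
noncomputable def trp (w n : ℕ) (φ : ℕ → ℕ) (a : ℕ) : ℕ :=
  frc a fun a => pack w (fun p => φ (ent w a (Nat.add (Nat.mul n (Nat.mod p n)) (Nat.div p n)))) (Nat.mul n n)

variable {F : Type*} [Field F] {m : Type*} [Fintype m] [DecidableEq m]

/-- The matrix with a given code. -/
def dec (ι : ℕ → F) (w : ℕ) {n : ℕ} (e : m ≃ Fin n) (c : ℕ) : Matrix m m F :=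
  Matrix.of fun i j => ι (ent w c (n * e i + e j))

theorem idx {n : ℕ} (i j : Fin n) : n * i + j < n * n ∧ (n * i + j) / n = i ∧ (n * i + j) % n = j := by
  have hi := i.2
  have hj := j.2
  refine ⟨by nlinarith, ?_, ?_⟩
  · rw [Nat.mul_add_div (by omega), Nat.div_eq_of_lt hj, add_zero]
  · rw [Nat.mul_add_mod, Nat.mod_eq_of_lt hj]

theorem dec_mmul {ι : ℕ → F} {w n : ℕ} {dot : (ℕ → ℕ) → (ℕ → ℕ) → ℕ} (e : m ≃ Fin n)
    (h : ∀ f g, (∀ k, f k < 2 ^ w) → (∀ k, g k < 2 ^ w) → dot f g < 2 ^ w ∧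
      ι (dot f g) = ∑ k ∈ Finset.range n, ι (f k) * ι (g k)) (a b : ℕ) :
    dec ι w e (mmul w n dot a b) = dec ι w e a * dec ι w e b := by
  ext i j
  simp only [mmul, frc_eq, dec, Matrix.of_apply, Matrix.mul_apply, Nat.add_eq, Nat.mul_eq, div_eq, mod_eq]
  rw [(ent_pack (fun p => (h _ _ (fun _ => ent_lt _ _ _) fun _ => ent_lt _ _ _).1) _).2 _ (idx _ _).1,
    (h _ _ (fun _ => ent_lt _ _ _) fun _ => ent_lt _ _ _).2, Finset.sum_range, ← e.sum_comp]
  simp only [(idx _ _).2]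

theorem dec_trp {ι : ℕ → F} {w n : ℕ} {φ : ℕ → ℕ} (e : m ≃ Fin n) (h : ∀ x < 2 ^ w, φ x < 2 ^ w)
    (a : ℕ) (i j : m) : dec ι w e (trp w n φ a) i j = ι (φ (ent w a (n * e j + e i))) := by
  simp only [trp, frc_eq, dec, Matrix.of_apply, Nat.add_eq, Nat.mul_eq, div_eq, mod_eq]
  rw [(ent_pack (fun p => h _ (ent_lt _ _ _)) _).2 _ (idx _ _).1]
  simp only [(idx _ _).2]

/-- Dot products over the field with three elements. -/
noncomputable def dot3 (f g : ℕ → ℕ) : ℕ := Nat.mod (sm 6 fun k => Nat.mul (f k) (g k)) 3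

theorem dot3_spec (f g : ℕ → ℕ) : dot3 f g < 2 ^ 2 ∧
    ((dot3 f g : ℕ) : ZMod 3) = ∑ k ∈ Finset.range 6, (f k : ZMod 3) * g k :=
  ⟨(Nat.mod_lt _ (by norm_num)).trans (by norm_num), by
    rw [dot3, mod_eq, ← CharP.cast_eq_mod]; simp [sm_eq]⟩

/-- Dot products over the field with nine elements. -/
noncomputable def dot9 (n : ℕ) (f g : ℕ → ℕ) : ℕ :=
  frc (sm n fun k => frc (f k) fun x => frc (g k) fun y => Nat.add (Nat.add
      (Nat.mul (Nat.mod x 4) (Nat.mod y 4)) (Nat.mul 2 (Nat.mul (Nat.div x 4) (Nat.div y 4)))) 0)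
    fun r => Nat.add (Nat.mod r 3) (Nat.mul 4 (Nat.mod (sm n fun k => frc (f k) fun x => frc (g k)
      fun y => Nat.add (Nat.mul (Nat.mod x 4) (Nat.div y 4)) (Nat.mul (Nat.div x 4) (Nat.mod y 4))) 3))

/-- Elements of the field with nine elements. -/
def i9 (i : F) (c : ℕ) : F := (c % 4 : ℕ) + (c / 4 : ℕ) * i

theorem i9_add (i : F) [CharP F 3] (a b : ℕ) : i9 i (a % 3 + 4 * (b % 3)) = a + b * i := by
  rw [i9, show (a % 3 + 4 * (b % 3)) % 4 = a % 3 by omega, show (a % 3 + 4 * (b % 3)) / 4 = b % 3 by omega,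
    ← CharP.cast_eq_mod, ← CharP.cast_eq_mod]

theorem dot9_spec [CharP F 3] {i : F} (hi : i * i = -1) (n : ℕ) (f g : ℕ → ℕ) : dot9 n f g < 2 ^ 4 ∧
    i9 i (dot9 n f g) = ∑ k ∈ Finset.range n, i9 i (f k) * i9 i (g k) := by
  simp only [dot9, frc_eq, Nat.add_eq, Nat.mul_eq, div_eq, mod_eq, sm_eq, add_zero]
  refine ⟨by omega, ?_⟩
  rw [i9_add, Nat.cast_sum, Nat.cast_sum, Finset.sum_mul, ← Finset.sum_add_distrib]
  refine Finset.sum_congr rfl fun k _ => ?_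
  have h3 : (3 : F) = 0 := CharP.cast_eq_zero F 3
  simp only [i9, Nat.cast_add, Nat.cast_mul, Nat.cast_ofNat]
  linear_combination ((f k / 4 : ℕ) * (g k / 4 : ℕ) : F) * (h3 - hi)

/-- The system attached to a matrix group. -/
noncomputable def mkSys {K V G : Type*} [Field K] [AddCommGroup V] [Module K V] [Group G]
    (val : G →* Matrix m m F) (hv : Function.Injective val) (φ : G →* End K V) (d : ℕ → Matrix m m F)
    {mm : ℕ → ℕ → ℕ} (hd : ∀ a b, d (mm a b) = d a * d b) {Z : List ℕ}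
    (hZ : ∀ z ∈ Z, ∃ g, val g = d z ∧ φ g = 1) :
    {S : Sys K V mm Z // (∀ g c, val g = d c → S.Ok c ∧ S.σ c = φ g) ∧ ∀ c, S.Ok c → ∃ g, val g = d c} := by
  classical
  let σ : ℕ → End K V := fun c => if h : ∃ g, val g = d c then φ h.choose else 1
  have hσ : ∀ g c, val g = d c → σ c = φ g := fun g c h => by
    have h1 : ∃ g, val g = d c := ⟨g, h⟩
    simp only [σ, dif_pos h1, hv (h1.choose_spec.trans h.symm)]
  exact ⟨⟨fun c => ∃ g, val g = d c, σ, by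
      rintro a b ⟨g, hg⟩ ⟨h, hh⟩
      have : val (g * h) = d (mm a b) := by rw [map_mul, hd, hg, hh]
      exact ⟨⟨_, this⟩, by rw [hσ _ _ this, hσ _ _ hg, hσ _ _ hh, map_mul]⟩, by
      rintro a ⟨g, hg⟩
      exact hσ _ _ hg ▸ (Group.isUnit g).map φ, fun z hz => by
      obtain ⟨g, h1, h2⟩ := hZ z hz
      exact ⟨⟨g, h1⟩, (hσ _ _ h1).trans h2⟩⟩, fun g c h => ⟨⟨g, h⟩, hσ g c h⟩, fun _ h => h⟩

end Cfsg.Agent.H9.B2
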