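import Cfsg.Agent.H9.E83.L2
import Cfsg.Agent.H9.B2.Dat8
import Cfsg.Agent.H9.B2.Code

/-!
Fixed spaces of semisimple elements of `E₈(3)`.
-/

set_option autoImplicit false
set_option linter.unusedSectionVars false
set_option linter.unusedSimpArgs false
set_option maxRecDepth 100000

namespace Cfsg.Agent.H9.B2

open Module Matrix Cfsg.Lie Cfsg.Agent.H5.Ch Polynomial Cfsg.Agent.H9.SL2 Cfsg.Agent.H9.Ch

theorem fx_count {V : Type*} [AddCommGroup V] [Module (ZMod 3) V] [FiniteDimensional (ZMod 3) V]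
    {f : End (ZMod 3) V} {M : ℕ} (hM : ¬3 ∣ M) (hf : f ^ M = 1) {a : K3} {n : ℕ} (hn : n ≠ 0)
    (ha : IsPrimitiveRoot a n) {s : Multiset ℤ} (h : f.charpoly.map (algebraMap _ K3) = PP a s) :
    finrank (ZMod 3) (fx f) = s.countP (· % (n : ℤ) = 0) ∧
    (n = 8 → finrank (ZMod 3) (fx (-f)) = s.countP (· % 8 = 4)) := by
  classical
  haveI : Fact (Nat.Prime 3) := ⟨Nat.prime_three⟩
  have h1 : f.IsSemisimple := End.isSemisimple_of_squarefree_aeval_eq_zero
    (X_pow_sub_one_separable_iff.2 (by rwa [Ne, CharP.cast_eq_zero_iff _ 3])).squarefree (by simp [hf])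
  have h2 : ∀ μ : ZMod 3, finrank (ZMod 3) (f.eigenspace μ) =
      s.countP fun w => a ^ w = algebraMap _ K3 μ := fun μ => by
    rw [← h1.isFinitelySemisimple.maxGenEigenspace_eq_eigenspace, LinearMap.finrank_maxGenEigenspace_eq,
      eq_rootMultiplicity_map (algebraMap _ K3).injective, h, ← count_roots, PP,
      show s.map (fun w => X - C (a ^ w)) = (s.map (a ^ ·)).map (X - C ·) by rw [Multiset.map_map]; rfl,
      roots_multiset_prod_X_sub_C, Multiset.count_map, Multiset.countP_eq_card_filter]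
    simp only [eq_comm]
  have h3 : fx f = f.eigenspace 1 := by ext v; simp
  have h4 : fx (-f) = f.eigenspace (-1) := by ext v; simp [neg_eq_iff_eq_neg]
  rw [h3, h4, h2, h2, map_neg, map_one]
  refine ⟨Multiset.countP_congr rfl fun w _ => ?_, fun e => Multiset.countP_congr rfl fun w _ => ?_⟩
  · rw [ha.zpow_eq_one_iff_dvd, Int.dvd_iff_emod_eq_zero]
  · subst e
    have h0 := ha.ne_zero hn
    rw [← (ha.pow (a := 4) (b := 2) (by norm_num) rfl).eq_neg_one_of_two_right, ← div_eq_one_iff_eq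
      (pow_ne_zero _ h0), ← zpow_natCast, ← zpow_sub₀ h0, ha.zpow_eq_one_iff_dvd, eq_iff_iff]
    omega

/-- The adjoint module. -/
abbrev V8 := Fin 8 ⊕ Fin 240 → ZMod 3

/-- The adjoint representation. -/
noncomputable def r0 : chevE8.group (ZMod 3) →* End (ZMod 3) V8 :=
  (toLinAlgEquiv' : _ ≃ₐ[ZMod 3] _).toMonoidHom.comp ((Units.coeHom _).comp
    ((MulAut.conj (dU (ZMod 3))).toMonoidHom.comp (chevE8.group (ZMod 3)).subtype))

theorem r0_inj : Function.Injective r0 :=
  (toLinAlgEquiv' : _ ≃ₐ[ZMod 3] _).injective.comp (Units.val_injective.comp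
    ((MulAut.conj (dU (ZMod 3))).injective.comp Subtype.val_injective))

theorem r0_charpoly (g : chevE8.group (ZMod 3)) :
    (r0 g).charpoly.map (algebraMap _ K3) = (rho g).1.charpoly :=
  (congrArg _ (charpoly_toLin' _)).trans (charpoly_map _ _).symm

theorem finrank_V8 : finrank (ZMod 3) V8 = 248 := by simp

/-- An orthogonal frame. -/
def frm : List (List ℤ) := [[2, 3, 4, 6, 5, 4, 3, 2], [2, 2, 3, 4, 3, 2, 1, 0], [0, 1, 1, 2, 2, 2, 1, 0],
  [0, 1, 1, 2, 1, 0, 0, 0], [0, 1, 0, 0, 0, 0, 0, 0], [0, 0, 1, 0, 0, 0, 0, 0], [0, 0, 0, 0, 1, 0, 0, 0],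
  [0, 0, 0, 0, 0, 0, 1, 0]]

/-- The columns. -/
def gq (i : Fin 8) (l : List ℤ) : ℕ := (v8 l i % 2728).toNat

/-- The values on the weights. -/
def tq (c : Fin 8 → ℕ) (L : List (List ℤ)) : List ℕ := L.map fun l => (I8.map fun i => c i * gq i l).sum

theorem col3_eq : col3 = I8.map fun i => (mk8 i, pk ((frm ++ rl2).map (gq i))) := by decide +kernel

theorem frm_sum : ∀ i j, (rl2.map fun l => v8 l i * v8 l j).sum = 30 * (frm.map fun l => v8 l i * v8 l j).sum := by
  decide +kernel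

theorem unp_app {l l' : List ℕ} (h : ∀ x ∈ l, x < 65536) : unp l.length (pk (l ++ l')) = l := by
  induction l with
  | nil => rfl
  | cons x l ih =>
    have := h x (by simp)
    change (pk (x :: (l ++ l')) % 65536) :: unp l.length (pk (x :: (l ++ l')) / 65536) = _
    rw [show pk (x :: (l ++ l')) % 65536 = x by unfold pk; omega,
      show pk (x :: (l ++ l')) / 65536 = pk (l ++ l') by
      conv_lhs => unfold pk
      omega, ih fun y hy => h y (by simp [hy])]

theorem enum3 {leaf : ℕ → Bool} {b : ℕ} (hb : b ≤ 31) (h : enum leaf col3 b 0 = true) {c : Fin 8 → ℕ}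
    (hc : ∑ i, c i * mk8 i ≤ b) : ∃ P, leaf P = true ∧ unp 8 P = tq c frm ∧
      (unp 256 P).drop 8 = tq c rl2 := by
  rw [col3_eq] at h
  refine ⟨_, enum_sound mk8 (by decide) _ c I8 h (by rwa [sum_I8]), ?_⟩
  have h1 : ∀ L, ∀ x ∈ tq c L, x < 65536 := fun L x hx => by
    obtain ⟨l, -, rfl⟩ := List.mem_map.1 hx
    have : ∑ i, c i * gq i l * 2 ≤ ∑ i, c i * mk8 i * 2727 := Finset.sum_le_sum fun i _ => by
      rw [mul_assoc, mul_assoc, mul_comm (mk8 i)]
      exact Nat.mul_le_mul_left _ (Nat.mul_le_mul (by unfold gq; omega) (by revert i; decide))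
    rw [← Finset.sum_mul, ← Finset.sum_mul] at this
    rw [sum_I8]; omega
  have h2 : (I8.map fun i => c i * pk ((frm ++ rl2).map (gq i))).sum = pk (tq c frm ++ tq c rl2) := by
    rw [pk_sum, List.map_append]; rfl
  have h3 := unp_app (l' := tq c rl2) (h1 frm)
  have h4 := unp_pk (l := tq c frm ++ tq c rl2) fun x hx => (List.mem_append.1 hx).elim (h1 _ x) (h1 _ x)
  have h5 : (tq c frm).length = 8 := by simp [tq, frm]
  have h6 : (tq c rl2).length = 248 := by simp [tq, rl2, rl_length]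
  rw [List.length_append, h5, h6] at h4
  rw [h5] at h3
  rw [zero_add, h2, h3, h4, List.drop_left' h5]
  exact ⟨rfl, rfl⟩

theorem tq_cast (c : Fin 8 → ℕ) (l : List ℤ) :
    (2728 : ℤ) ∣ ((I8.map fun i => c i * gq i l).sum : ℕ) - ∑ i, v8 l i * c i := by
  rw [sum_I8, Nat.cast_sum, ← Finset.sum_sub_distrib]
  refine Finset.dvd_sum fun i _ => ⟨-c i * (v8 l i / 2728), ?_⟩
  have : (gq i l : ℤ) = v8 l i - 2728 * (v8 l i / 2728) := by unfold gq; omega
  rw [Nat.cast_mul, this]; ring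

theorem ssq31 {c : Fin 8 → ℕ} (h : Inv3 31 (tq c rl2)) : ssq (tq c frm) % 31 = 0 := by
  have h1 : ∀ t, ((ssq t : ℕ) : ZMod 31) = (t.map fun v : ℕ => (v : ZMod 31) ^ 2).sum := fun t => by
    induction t with
    | nil => rfl
    | cons a t ih => rw [List.map_cons, List.sum_cons, ← ih, sq]; exact_mod_cast rfl
  have h2 : ∀ L, ((ssq (tq c L) : ℕ) : ZMod 31) =
      ∑ i, ∑ j, (c i * c j * (L.map fun l => v8 l i * v8 l j).sum : ℤ) := fun L => by
    rw [h1]
    induction L with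
    | nil => simp [tq]
    | cons l L ih =>
      rw [tq, List.map_cons, List.map_cons, List.sum_cons, ← tq, ih, ← Int.cast_natCast,
        ((ZMod.intCast_eq_intCast_iff_dvd_sub _ _ 31).2 ((show (31 : ℤ) ∣ 2728 by norm_num).trans
        (tq_cast c l))).symm, sq, ← Int.cast_mul, ← Int.cast_add, Finset.sum_mul_sum]
      simp only [← Finset.sum_add_distrib, List.map_cons, List.sum_cons]
      exact congrArg _ (Finset.sum_congr rfl fun i _ => Finset.sum_congr rfl fun j _ => by ring)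
  have := congrArg (fun s : Multiset ℕ => (s.map fun v : ℕ => (v : ZMod 31) ^ 2).sum) h
  simp only [List.map_map, Function.comp_def, ZMod.natCast_mod, Nat.cast_mul, mul_pow, Multiset.map_coe,
    Multiset.sum_coe, List.sum_map_mul_left, ← h1] at this
  have h3 : ((ssq (tq c rl2) : ℕ) : ZMod 31) = 30 * ssq (tq c frm) := by
    simp only [h2, frm_sum, mul_left_comm _ (30 : ℤ), ← Finset.mul_sum, Int.cast_mul, Int.cast_ofNat]
  rw [← Nat.dvd_iff_mod_eq_zero, ← ZMod.natCast_eq_zero_iff]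
  rw [h3] at this
  exact (show ∀ x : ZMod 31, ((3 : ℕ) : ZMod 31) ^ 2 * (30 * x) = 30 * x → x = 0 by decide) _ this

theorem e8_cn {M : ℕ} (hM : M = 8 ∨ M = 11 ∨ M = 31) (g : chevE8.group (ZMod 3)) (hg : g ^ M = 1) :
    ∃ c : Fin 8 → ℕ, ∑ i, c i * mk8 i ≤ M ∧ Inv3 M (tq c rl2) ∧ ∀ k,
      finrank (ZMod 3) (fx (r0 g ^ k)) = cn k M 0 (tq c rl2) ∧
      (M = 8 → finrank (ZMod 3) (fx (-r0 g ^ k)) = cn k M 4 (tq c rl2)) := by
  have h0 : M ≠ 0 := by omega
  have h3 : ¬3 ∣ M := by omega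
  have hd : (M : ℤ) ∣ 2728 := by rcases hM with rfl | rfl | rfl <;> norm_num
  haveI : NeZero (M : K3) := ⟨by rwa [Ne, CharP.cast_eq_zero_iff K3 3]⟩
  obtain ⟨ζ, hζ⟩ := HasEnoughRootsOfUnity.exists_primitiveRoot K3 M
  obtain ⟨a, h1, h2, h4, -⟩ := spec h0 (fun p hp h => by
    rcases hM with rfl | rfl | rfl
    · exact .inl ((Nat.prime_dvd_prime_iff_eq hp Nat.prime_two).1 (hp.dvd_of_dvd_pow (n := 3) h))
    · rw [(Nat.prime_dvd_prime_iff_eq hp (by norm_num)).1 h]; norm_num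
    · rw [(Nat.prime_dvd_prime_iff_eq hp (by norm_num)).1 h]; norm_num) hζ g hg
  let c : Fin 8 → ℕ := fun i => (a (al i)).toNat
  have h5 : ∀ k : ℕ, (rho (g ^ k)).1.charpoly = PP ζ ((tq c rl2).map fun v : ℕ => ((k * v : ℕ) : ℤ)) :=
    fun k => by
      rw [h4, prod_rt fun v => X - C (ζ ^ (k * a v))]
      have : ∀ l, ζ ^ ((k * (I8.map fun i => c i * gq i l).sum : ℕ) : ℤ) = ζ ^ (k * a (v8 l)) := fun l => by
        rw [← div_eq_one_iff_eq (zpow_ne_zero _ (hζ.ne_zero h0)), ← zpow_sub₀ (hζ.ne_zero h0),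
          hζ.zpow_eq_one_iff_dvd, Nat.cast_mul, ← mul_sub, lin_eq]
        simpa only [c, Int.toNat_of_nonneg (h1 _)] using (hd.trans (tq_cast c l)).mul_left _
      simp only [PP, tq, List.map_map, Multiset.map_coe, Multiset.prod_coe, Function.comp_def, this]
      simp [rl2, show v8 [] = 0 from rfl, pow_succ, mul_assoc]
  refine ⟨c, ?_, ?_, fun k => ?_⟩
  · rw [lin_eq] at h2
    zify
    simp only [c, Int.toNat_of_nonneg (h1 _)]
    convert h2 using 2 with i
    rw [mul_comm]; fin_cases i <;> rfl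
  · have := congrArg (fun x => x.1.charpoly) (rho_frob (g ^ 1))
    have := ((charpoly_map _ _).symm.trans this)
    rw [h5, PP_map _ 3 (fun _ => rfl)] at this
    have := congrArg (Multiset.map Int.toNat) (PP_inj h0 hζ this)
    simpa only [Inv3, Multiset.map_map, Function.comp_def, ← Multiset.map_coe, one_mul, ← Nat.cast_mul,
      ← Int.natCast_mod, Int.toNat_natCast] using this
  · have := fx_count (f := r0 g ^ k) h3 (by rw [pow_right_comm, ← map_pow r0 g M, hg, map_one, one_pow]) h0 hζ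
      ((congrArg _ (by rw [map_pow])).trans ((r0_charpoly _).trans (h5 k)))
    simp only [Multiset.coe_countP, List.countP_map, Function.comp_def] at this
    refine ⟨this.1.trans (List.countP_congr fun v _ => ?_), fun e =>
      (this.2 e).trans (List.countP_congr fun v _ => ?_)⟩
    · simp only [decide_eq_true_eq]; norm_cast
    · simp only [decide_eq_true_eq, e]; norm_cast

theorem e8_8 {g : chevE8.group (ZMod 3)} (hg : r0 g ^ 8 = 1) :
    (bt ⊤ (r0 g), bt ⊤ (r0 g ^ 2), bt ⊤ (r0 g ^ 4)) ∈ T8 := by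
  obtain ⟨c, h1, h2, h3⟩ := e8_cn (.inl rfl) g (r0_inj (by rw [map_pow, hg, map_one]))
  obtain ⟨P, h4, -, h5⟩ := enum3 (by norm_num) chk_e8 h1
  rw [leaf8, h5, inv3_of h2, ← (h3 1).1, ← (h3 2).1, ← (h3 4).1, ← (h3 1).2 rfl, ← (h3 2).2 rfl,
    ← (h3 4).2 rfl, ← bt_top, ← bt_top, ← bt_top, pow_one] at h4
  exact List.mem_of_elem_eq_true h4

theorem fx_top {f : End (ZMod 3) V8} (h : finrank (ZMod 3) (fx f) = 248) : f = 1 :=
  LinearMap.ext fun v => mem_fx.1
    (Submodule.eq_top_of_finrank_eq (S := fx f) (h.trans finrank_V8.symm) ▸ Submodule.mem_top)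

theorem e8_11 {g : chevE8.group (ZMod 3)} (hg : r0 g ^ 11 = 1) (h : r0 g ≠ 1) :
    finrank (ZMod 3) (fx (r0 g)) = 28 := by
  obtain ⟨c, h1, h2, h3⟩ := e8_cn (.inr (.inl rfl)) g (r0_inj (by rw [map_pow, hg, map_one]))
  obtain ⟨P, h4, -, h5⟩ := enum3 (by norm_num) chk_e11 h1
  rw [leaf11, h5, inv3_of h2, ← (h3 1).1, pow_one] at h4
  simpa [mt fx_top h] using List.mem_of_elem_eq_true h4

theorem e8_31 {g : chevE8.group (ZMod 3)} (hg : r0 g ^ 31 = 1) (h : r0 g ≠ 1) :
    finrank (ZMod 3) (fx (r0 g)) = 8 := by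
  obtain ⟨c, h1, h2, h3⟩ := e8_cn (.inr (.inr rfl)) g (r0_inj (by rw [map_pow, hg, map_one]))
  obtain ⟨P, h4, h6, h5⟩ := enum3 (by norm_num) chk_e31 h1
  rw [leaf31, h5, h6, mod_eq, ssq31 h2, inv3_of h2, ← (h3 1).1, pow_one] at h4
  simpa [mt fx_top h] using List.mem_of_elem_eq_true h4

theorem ord6 : orderOf (6 : ZMod 41) = 40 := (orderOf_eq_iff (by norm_num)).2 (by decide)

theorem no_inv {a : (Fin 8 → ℤ) →ₗ[ℤ] ℤ} (h1 : Inv a 41 3) (h2 : Inv a 41 2) (v : Fin 8 → ℤ) :
    (41 : ℤ) ∣ a v := by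
  obtain ⟨w1, h3, h4⟩ := h1
  obtain ⟨w2, h5, h6⟩ := h2
  let w : End ℤ (Fin 8 → ℤ) := (w1 * w2).toLinearMap
  let b : (Fin 8 → ℤ) → ZMod 41 := fun v => a v
  have h7 : ∀ v, b (w v) = 6 * b v := fun v => by
    have e1 : b (w1 (w2 v)) = (3 * a (w2 v) : ℤ) := (ZMod.intCast_eq_intCast_iff' _ _ _).2 (h4 _)
    have e2 : b (w2 v) = (2 * a v : ℤ) := (ZMod.intCast_eq_intCast_iff' _ _ _).2 (h6 _)
    simp only [b, Int.cast_mul, Int.cast_ofNat] at e1 e2 ⊢
    exact e1.trans (by rw [e2]; ring)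
  have h8 : ∀ p : ℤ[X], b (aeval w p v) = aeval (6 : ZMod 41) p * b v := fun p => by
    induction p using Polynomial.induction_on' with
    | add p q hp hq => simp only [map_add, LinearMap.add_apply, add_mul, ← hp, ← hq, b, Int.cast_add]
    | monomial n x =>
      have : b ((w ^ n) v) = 6 ^ n * b v := by
        induction n with
        | zero => simp
        | succ n ih => rw [pow_succ', End.mul_apply, h7, ih, pow_succ', mul_assoc]
      simp only [b] at this
      rw [aeval_monomial, aeval_monomial, ← Algebra.smul_def, LinearMap.smul_apply]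
      simp only [b, map_smul, smul_eq_mul, Int.cast_mul, this, mul_assoc, eq_intCast]
  obtain ⟨π, hπ⟩ := SLD.exists_perm (R := E8) (w := w1 * w2) fun u v => (h3 _ _).trans (h5 u v)
  obtain ⟨n, hn, h9⟩ := (isOfFinOrder_of_finite π).exists_pow_eq_one
  have h10 : w ^ n = 1 := by
    have : ∀ (k : ℕ) r, (w ^ k) (E8.rt r) = E8.rt ((π ^ k) r) := fun k r => by
      induction k with
      | zero => rfl
      | succ k ih => rw [pow_succ', End.mul_apply, ih, pow_succ', Equiv.Perm.mul_apply, hπ]; rfl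
    refine (Pi.basisFun ℤ _).ext fun i => ?_
    have e : Pi.basisFun ℤ _ i = E8.rt (E8.ix (E8.sp i).2) := by simp [al]
    rw [e, this, h9]; rfl
  let A := LinearMap.toMatrix' w
  let φ := Int.castRingHom ℚ
  let g : Finset ℕ → ℤ[X] := fun s => ∏ d ∈ s, cyclotomic d ℤ
  have h11 : aeval w (g (n.divisors.filter (Nat.totient · ≤ 8))) = 0 := by
    have e1 : IsCoprime ((g (n.divisors.filter (¬Nat.totient · ≤ 8))).map φ) (A.map φ).charpoly := by
      simp only [g, Polynomial.map_prod, map_cyclotomic]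
      refine IsCoprime.prod_left fun d hd => ?_
      have hd := Finset.mem_filter.1 hd
      refine (cyclotomic.irreducible_rat (Nat.pos_of_mem_divisors hd.1)).coprime_iff_not_dvd.2 fun h => hd.2 ?_
      simpa [natDegree_cyclotomic] using natDegree_le_of_dvd h (charpoly_monic _).ne_zero
    have e2 : ∀ p : ℤ[X], aeval (A.map φ) (p.map φ) = (LinearMap.toMatrix' (aeval w p)).map φ := fun p => by
      exact (aeval_map_algebraMap ℚ _ p).trans (aeval_algHom_apply (φ.mapMatrix.comp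
        (LinearMap.toMatrixAlgEquiv' (R := ℤ) (n := Fin 8)).toRingHom).toIntAlgHom w p)
    obtain ⟨x, y, e3⟩ := e1
    have e4 := congrArg (fun p => aeval (A.map φ) (p * (g (n.divisors.filter (Nat.totient · ≤ 8))).map φ)) e3
    simp only [add_mul, mul_assoc, ← Polynomial.map_mul, g, one_mul] at e4
    rw [mul_comm (∏ _ ∈ _, _), Finset.prod_filter_mul_prod_filter_not, prod_cyclotomic_eq_X_pow_sub_one hn,
      map_add, map_mul, map_mul, map_mul, aeval_self_charpoly, e2, e2] at e4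
    simp only [map_sub, map_pow, aeval_X, h10, map_one, sub_self, map_zero, Matrix.map_zero, mul_zero,
      zero_mul, add_zero] at e4
    exact LinearMap.toMatrix'.injective (Matrix.map_injective φ.injective_int (by simp [g, ← e4]))
  have h12 := h8 (g (n.divisors.filter (Nat.totient · ≤ 8)))
  rw [h11, eq_comm] at h12
  haveI : Fact (Nat.Prime 41) := ⟨by norm_num⟩
  simp only [b, LinearMap.zero_apply, map_zero, Int.cast_zero, mul_eq_zero, g, map_prod,
    Finset.prod_eq_zero_iff, Finset.mem_filter] at h12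
  refine (ZMod.intCast_zmod_eq_zero_iff_dvd _ 41).1 (h12.resolve_left ?_)
  rintro ⟨d, hd, h13⟩
  have h14 := map_dvd (aeval (6 : ZMod 41)) (cyclotomic.dvd_X_pow_sub_one d ℤ)
  rw [h13, zero_dvd_iff, map_sub, map_pow, aeval_X, map_one, sub_eq_zero, ← orderOf_dvd_iff_pow_eq_one,
    ord6] at h14
  have := Nat.le_of_dvd (Nat.totient_pos.2 (Nat.pos_of_mem_divisors hd.1)) (Nat.totient_dvd_of_dvd h14)
  rw [show Nat.totient 40 = 16 by decide] at this
  omega

theorem no41 {F : Type*} [Field F] [Fintype F] (hF : Fintype.card F = 41)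
    {H : Subgroup (chevE8.group (ZMod 3))} (e : H ≃* ProjectiveSpecialLinearGroup (Fin 2) F) : False := by
  haveI : Fact (Nat.Prime 41) := ⟨by norm_num⟩
  haveI : CharP F 41 := charP_of_card_eq_prime hF
  let ψ : SpecialLinearGroup (Fin 2) F →* chevE8.group (ZMod 3) :=
    H.subtype.comp (e.symm.toMonoidHom.comp (QuotientGroup.mk' _))
  have h41 : (41 : F) = 0 := CharP.cast_eq_zero F 41
  have h1 : ψ (uu 1) ^ 41 = 1 := by
    rw [← map_pow, uu_pow, CharP.cast_eq_zero, zero_mul, uu_zero, map_one]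
  haveI : NeZero ((41 : ℕ) : K3) := ⟨by rw [Ne, CharP.cast_eq_zero_iff K3 3]; norm_num⟩
  obtain ⟨ζ, hζ⟩ := HasEnoughRootsOfUnity.exists_primitiveRoot K3 41
  obtain ⟨a, -, -, h2, h3, h4⟩ := spec (by norm_num) (fun p hp h => by
    rw [(Nat.prime_dvd_prime_iff_eq hp (by norm_num)).1 h]; norm_num) hζ _ h1
  let u : Fˣ := ⟨17, 29, by linear_combination 12 * h41, by linear_combination 12 * h41⟩
  have h8 : uu (1 : F) * tt u = tt u * uu 1 ^ 2 := by
    rw [uu_pow]
    ext i j
    fin_cases i <;> fin_cases j <;> simp [u]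
    linear_combination -h41
  have h5 := no_inv h3 (h4 2 (ψ (tt u)) (by
    rw [mul_assoc, ← map_mul, h8, map_mul, map_pow, inv_mul_cancel_left]))
  have h6 := h2 1
  simp only [pow_one, Nat.cast_one, one_mul, (hζ.zpow_eq_one_iff_dvd _).2 (h5 _), map_one,
    Finset.prod_const, ← pow_add] at h6
  have h7 : uu (1 : F) ∈ Subgroup.center _ := by
    simpa [ψ] using eq_one_of_charpoly (by norm_num) h1 h6
  obtain ⟨r, -, hr⟩ := Matrix.SpecialLinearGroup.mem_center_iff.1 h7
  simpa using congrFun (congrFun hr 0) 1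

end Cfsg.Agent.H9.B2
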