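import Cfsg.Agent.H9.B2.Link
import Cfsg.Agent.H9.B2.DatL

/-!
`E₈(3)` has no subgroup `L₂(32)`.
-/

set_option autoImplicit false
set_option linter.unusedSectionVars false
set_option linter.unusedSimpArgs false
set_option linter.style.haveILetI false
set_option maxRecDepth 100000

namespace Cfsg.Agent.H9.B2

open Module Matrix Cfsg.Lie Cfsg.Agent.H9.SL2 Cfsg.Agent.H9.Ch Polynomial
open scoped MatrixGroups

variable {F : Type*} [Field F] [CharP F 2] {α : F}

theorem exists_alpha [Fintype F] (hF : Fintype.card F = 32) : ∃ α : F, α ^ 5 = α ^ 2 + 1 := by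
  by_contra! h
  have h2 : (2 : F[X]) = 0 := CharP.cast_eq_zero F[X] 2
  have h3 : (2 : F) = 0 := CharP.cast_eq_zero F 2
  let q : F[X] := X ^ 1 + X ^ 3 + X ^ 5 + X ^ 6 + X ^ 7 + X ^ 9 + X ^ 10 + X ^ 14 + X ^ 15 + X ^ 16 +
    X ^ 17 + X ^ 18 + X ^ 21 + X ^ 22 + X ^ 24 + X ^ 27
  have h4 : (X ^ 5 + X ^ 2 + 1) * q = X ^ 32 - X := by
    simp only [q]
    linear_combination (X ^ 1 + X ^ 3 + X ^ 5 + X ^ 6 + X ^ 7 + X ^ 8 + X ^ 9 + X ^ 10 + X ^ 11 + X ^ 12 +
      X ^ 14 + X ^ 15 + X ^ 16 + X ^ 17 + X ^ 18 + X ^ 19 + X ^ 20 + X ^ 21 + X ^ 22 + X ^ 23 + X ^ 24 +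
      X ^ 26 + X ^ 27 + X ^ 29) * h2
  have h5 : q.natDegree ≤ 27 := by simp only [q]; compute_degree
  refine FiniteField.X_pow_card_sub_X_ne_zero F (p := 32) (by norm_num) ?_
  rw [← h4, eq_zero_of_natDegree_lt_card_of_eval_eq_zero q Function.injective_id (fun x => ?_) (by omega),
    mul_zero]
  have := congrArg (eval x) h4
  rw [eval_mul, eval_sub, eval_pow, eval_X, ← hF, FiniteField.pow_card, sub_self, mul_eq_zero] at this
  refine this.resolve_left fun e => h x ?_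
  simp only [eval_add, eval_pow, eval_X, eval_one] at e
  linear_combination e - (x ^ 2 + 1) * h3

/-- Elements of the field with 32 elements. -/
def i32 (α : F) (c : ℕ) : F := (c % 2 : ℕ) + (c / 2 % 2 : ℕ) * α + (c / 4 % 2 : ℕ) * α ^ 2 +
  (c / 8 % 2 : ℕ) * α ^ 3 + (c / 16 % 2 : ℕ) * α ^ 4

theorem i32_xor {a b : ℕ} (ha : a < 32) (hb : b < 32) : i32 α (a ^^^ b) = i32 α a + i32 α b := by
  obtain ⟨-, h1, h2, h3, h4, h5⟩ := xor32 a ha b hb
  rw [i32, h1, h2, h3, h4, h5]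
  simp only [← CharP.cast_eq_mod F 2, i32, Nat.cast_add]
  ring

theorem i32_ma (hα : α ^ 5 = α ^ 2 + 1) {a : ℕ} (ha : a < 32) : i32 α (ma a) = α * i32 α a := by
  obtain ⟨-, h1, h2, h3, h4, h5⟩ := ma32 a ha
  rw [i32, h1, h2, h3, h4, h5]
  simp only [← CharP.cast_eq_mod F 2, i32, Nat.cast_add]
  linear_combination -((a / 16 : ℕ) : F) * hα

theorem i32_mu (hα : α ^ 5 = α ^ 2 + 1) {a b : ℕ} (ha : a < 32) (hb : b < 32) :
    i32 α (mu32 a b) = i32 α a * i32 α b := by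
  have h1 : ∀ c x, x < 32 → c % 2 * x < 32 ∧ i32 α (c % 2 * x) = (c % 2 : ℕ) * i32 α x := fun c x hx => by
    rcases Nat.mod_two_eq_zero_or_one c with h | h <;> simp [h, hx, i32]
  have m1 := (ma32 _ ha).1
  have m2 := (ma32 _ m1).1
  have m3 := (ma32 _ m2).1
  have m4 := (ma32 _ m3).1
  have x1 := (xor32 _ (h1 (b / 8) _ m3).1 _ (h1 (b / 16) _ m4).1).1
  have x2 := (xor32 _ (h1 (b / 4) _ m2).1 _ x1).1
  have x3 := (xor32 _ (h1 (b / 2) _ m1).1 _ x2).1
  rw [mu32_eq a ha b hb, i32_xor (h1 _ _ ha).1 x3, i32_xor (h1 _ _ m1).1 x2, i32_xor (h1 _ _ m2).1 x1,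
    i32_xor (h1 _ _ m3).1 (h1 _ _ m4).1, (h1 _ _ ha).2, (h1 _ _ m1).2, (h1 _ _ m2).2, (h1 _ _ m3).2,
    (h1 _ _ m4).2, i32_ma hα m3, i32_ma hα m2, i32_ma hα m1, i32_ma hα ha, i32.eq_1 α b]
  ring

/-- The matrices. -/
def dL (α : F) : ℕ → Matrix (Fin 2) (Fin 2) F := dec (i32 α) 5 (Equiv.refl _)

theorem dL_mul (hα : α ^ 5 = α ^ 2 + 1) (a b : ℕ) : dL α (m5 a b) = dL α a * dL α b :=
  dec_mmul _ (fun f g hf hg => ⟨(xor32 _ (ent_lt 5 _ _) _ (ent_lt 5 _ _)).1,
    (i32_xor (ent_lt 5 _ _) (ent_lt 5 _ _)).trans (by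
      rw [Finset.sum_range_succ, Finset.sum_range_one, ← i32_mu hα (hf _) (hg _), ← i32_mu hα (hf _) (hg _)]
      rfl)⟩) a b

theorem vL_sound (hα : α ^ 5 = α ^ 2 + 1) {c : ℕ} (h : vL c = true) : (dL α c).det = 1 := by
  have := congrArg (i32 α) (Nat.eq_of_beq_eq_true h)
  erw [i32_xor (ent_lt 5 _ _) (ent_lt 5 _ _)] at this
  erw [i32_mu hα (ent_lt 5 _ _) (ent_lt 5 _ _), i32_mu hα (ent_lt 5 _ _) (ent_lt 5 _ _)] at this
  rw [det_fin_two, CharTwo.sub_eq_add]
  exact this.trans (by simp [i32])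

theorem sum_count {M : Type*} [AddCommMonoid M] (Φ : ℕ → M) {n : ℕ} {l : List ℕ} (h : ∀ j ∈ l, j < n) :
    (l.map Φ).sum = ∑ j ∈ Finset.range n, l.count j • Φ j := by
  induction l with
  | nil => simp
  | cons a l ih =>
    rw [List.map_cons, List.sum_cons, ih fun j hj => h j (List.mem_cons_of_mem _ hj)]
    simp [List.count_cons, add_smul, Finset.sum_add_distrib, h a List.mem_cons_self, add_comm]

theorem sum_app (σ : ℕ → End (ZMod 3) V8) (L : List ℕ) (w : V8) :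
    (L.map σ).sum w = (L.map fun u => σ u w).sum := by
  induction L with
  | nil => rfl
  | cons a L ih => rw [List.map_cons, List.map_cons, List.sum_cons, List.sum_cons, ← ih]; rfl

theorem cert (S : Sys (ZMod 3) V8 m5 [0x8001]) (h1 : ∀ c, vL c = true → S.Ok c)
    (h2 : ∀ w, ((El m5 [0x8001] zsL).map fun u => S.σ u w).sum = 0) {v : V8}
    (h3 : S.σ 0x18420 v = v) (h4 : S.σ 0x420 v = v)
    (h5 : ((El m5 [0x8001] zsL.tail).map fun u => S.σ u (S.σ 0xd0ad9 v)).sum = 0) : v = 0 := by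
  let P : End (ZMod 3) V8 := (((List.range 22).map dd).map S.σ).sum
  have e0 := S.cen _ List.mem_cons_self
  have hd : ∀ d ∈ (List.range 22).map dd, S.Ok d := fun d hd =>
    h1 d (List.all_eq_true.1 (by decide +kernel) d hd)
  have h6 : ∀ x, S.Ok x → (((List.range 22).map dd).map (m5 · x)).Perm ((List.range 22).map dd) →
      P * S.σ x = P := fun x hx h => by
    refine Eq.trans ?_ (h.map S.σ).sum_eq
    rw [← List.sum_map_mul_right, List.map_map (l := (List.range 22).map dd)]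
    exact congrArg _ (List.map_congr_left fun d hd' => (S.mul (hd d hd') hx).2.symm)
  let Q : ℕ → Prop := fun d => S.Ok d ∧ S.σ d v = v ∧ P * S.σ d = P
  have q1 : ∀ a b, Q a → Q b → Q (m5 a b) := fun a b ha hb => by
    have := S.mul ha.1 hb.1
    exact ⟨this.1, by rw [this.2, End.mul_apply, hb.2.1, ha.2.1], by rw [this.2, ← mul_assoc, ha.2.2, hb.2.2]⟩
  have hx := h1 0x18420 (by decide +kernel)
  have hw := h1 0x420 (by decide +kernel)
  have q2 : ∀ k, Q (pw5 0x18420 k) := fun k => by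
    induction k with
    | zero => exact ⟨e0.1, by rw [show S.σ (pw5 _ 0) = 1 from e0.2]; rfl,
        by rw [show S.σ (pw5 _ 0) = 1 from e0.2, mul_one]⟩
    | succ k ih => exact q1 _ _ ih ⟨hx, h3, h6 _ hx chkL6.2.1⟩
  have q3 : ∀ k < 22, Q (dd k) := fun k hk => by
    rw [chkL6.1 k hk]
    split_ifs
    · exact q2 k
    · exact q1 _ _ ⟨hw, h4, h6 _ hw chkL6.2.2⟩ (q2 _)
  have h7 : ∀ h g, S.Ok h → S.Ok g → ∀ L D, (∀ u ∈ L, S.Ok u) → rl1 h g L D = true →
      ((D.map (· / 484)).map fun j => P (S.σ (rq j) v)).sum =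
        P (S.σ h (L.map fun u => S.σ u (S.σ g v)).sum) := fun h g hh hg L => by
    induction L with
    | nil => intro D _ e; cases D <;> simp_all [rl1]
    | cons u L ih =>
      rintro (_ | ⟨d, D⟩) hL e
      · simp [rl1] at e
      simp only [rl1, Bool.and_eq_true, Nat.beq_eq] at e
      have a1 := q3 _ (Nat.mod_lt d (show 0 < 22 by norm_num))
      have a2 := q3 _ (Nat.mod_lt (d / 22) (show 0 < 22 by norm_num))
      have a3 := S.mul (h1 _ e.1.1) a2.1
      have a4 := S.mul (hL u List.mem_cons_self) hg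
      have a5 := congrArg (fun c => (P * S.σ c) v) e.1.2
      simp only [(S.mul hh a4.1).2, a4.2, (S.mul a1.1 a3.1).2, a3.2] at a5
      rw [← mul_assoc P (S.σ (dd _)), a1.2.2] at a5
      simp only [End.mul_apply, a2.2.1] at a5
      simp only [List.map_cons, List.sum_cons, map_add, a5,
        ih D (fun u hu => hL u (List.mem_cons_of_mem _ hu)) e.2]
  have hz : ∀ z ∈ zsL, S.Ok z := fun z hz => h1 z (List.all_eq_true.1 (by decide +kernel) z hz)
  have h8 : ∀ L n R, (∀ u ∈ L, S.Ok u) → (∀ r ∈ R, rel L n r = true ∧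
      (L.map fun u => S.σ u (S.σ (r / 2 ^ 20 % 2 ^ 20) v)).sum = 0) →
      ((dcs n R).map fun j => P (S.σ (rq j) v)).sum = 0 := fun L n R hL hR => by
    induction R with
    | nil => rfl
    | cons r R ih =>
      have := hR r List.mem_cons_self
      simp only [rel, Bool.and_eq_true] at this
      rw [dcs, List.flatMap_cons, List.map_append, List.sum_append, h7 _ _ (h1 _ this.1.1.1) (h1 _ this.1.1.2)
        _ _ hL this.1.2, this.2, map_zero, map_zero, zero_add]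
      exact ih fun r hr => hR r (List.mem_cons_of_mem _ hr)
  have h9 := sum_count (fun j => P (S.σ (rq j) v)) chkL5
  rw [List.map_append, List.sum_append, h8 _ _ _ (fun u hu => (S.el hz hu).1) fun r hr =>
    ⟨List.all_eq_true.1 chkL2 r (by simpa using hr), h2 _⟩, h8 _ _ _ (fun u hu => (S.el (fun z h =>
      hz z (List.mem_of_mem_tail h)) hu).1) fun r hr => by
      have := List.all_eq_true.1 chkL3 r (by simpa using hr)
      rw [Bool.and_eq_true, Nat.beq_eq] at this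
      exact ⟨this.1, this.2 ▸ h5⟩, add_zero, Finset.sum_congr rfl fun j hj => by
      rw [← Nat.cast_smul_eq_nsmul (ZMod 3), ← ZMod.natCast_mod, chkL4 j (Finset.mem_range.1 hj)]] at h9
  have h10 : P v = v := by
    have : (((List.range 22).map dd).map fun d => S.σ d v) = List.replicate 22 v :=
      List.eq_replicate_iff.2 ⟨by simp, fun w hw => by
        simp only [List.map_map, List.mem_map, List.mem_range] at hw
        obtain ⟨k, hk, rfl⟩ := hw
        exact (q3 k hk).2.1⟩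
    rw [sum_app, this, List.sum_replicate, ← Nat.cast_smul_eq_nsmul (ZMod 3), show ((22 : ℕ) : ZMod 3) = 1 from rfl, one_smul]
  simpa [show S.σ (rq 0) = 1 from (congrArg _ (by decide +kernel)).trans e0.2, h10] using h9.symm

theorem no32 [Fintype F] (hF : Fintype.card F = 32)
    {H : Subgroup (chevE8.group (ZMod 3))} (e : H ≃* PSL(2, F)) : False := by
  obtain ⟨α, hα⟩ := exists_alpha hF
  obtain ⟨S, φ, h1, h2, h3⟩ := exists_sys Matrix.SpecialLinearGroup.coeMonoidHom Subtype.val_injective e (dL α)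
    (dL_mul hα) (Z := [0x8001]) (by
      have : dL α 0x8001 = 1 := by
        ext a b; fin_cases a <;> fin_cases b <;> simp [dL, dec, ent_eq, i32]
      simpa [this] using ⟨⟨1, rfl⟩, 1, (one_smul _ _).symm⟩)
  have h4 : ∀ c, vL c = true → S.Ok c := fun c h => (h1 ⟨_, vL_sound hα h⟩ c rfl).1
  have e0 := S.cen _ List.mem_cons_self
  have hz : ∀ z ∈ 0x8001 :: zsL, S.Ok z := fun z hz => h4 z (List.all_eq_true.1 (by decide +kernel) z hz)
  have hz1 : ∀ z ∈ zsL, S.Ok z := fun z h => hz z (List.mem_cons_of_mem _ h)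
  have hz2 : ∀ z ∈ zsL.tail, S.Ok z := fun z h => hz1 z (List.mem_of_mem_tail h)
  have hr : ∀ k < 8, S.Ok ([0x8001, 0x420].getD k 0x8001) := fun k hk =>
    h4 _ ((show ∀ k < 8, vL ([0x8001, 0x420].getD k 0x8001) = true by decide +kernel) k hk)
  obtain ⟨-, a1, a2⟩ := S.avg two_ne hz chkL1.1
  obtain ⟨-, b1, b2⟩ := S.avg two_ne hz (zs := zsL.tail) (by decide +kernel)
  have a3 := (a2 _ (.of List.mem_cons_self)).2
  have b3 := (b2 _ (.of List.mem_cons_self)).2
  rw [S.cj h4 hr (S.cs hz1 e0.1) chkL1.2.1, e0.2, bt_one two_ne] at a3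
  rw [S.cj h4 hr (S.cs hz2 e0.1) chkL1.2.2, e0.2, bt_one two_ne] at b3
  have c0 : ∀ k < 8, (ctA.map (· % 8)).count k = [1, 31].getD k 0 ∧
      (ctB.map (· % 8)).count k = [1, 15].getD k 0 := by decide +kernel
  rw [Finset.sum_congr rfl fun k hk => by rw [(c0 k (Finset.mem_range.1 hk)).1]] at a3
  rw [Finset.sum_congr rfl fun k hk => by rw [(c0 k (Finset.mem_range.1 hk)).2]] at b3
  simp only [Finset.sum_range_succ, Finset.sum_range_zero, List.getD_cons_succ, List.getD_cons_zero,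
    List.getD_nil, show zsL.length = 5 from rfl, show zsL.tail.length = 4 from rfl, e0.2, bt_id,
    Nat.cast_zero, zero_mul, add_zero, zero_add, Nat.cast_one, one_mul, Nat.cast_ofNat] at a3 b3
  have hw := h4 0x420 (by decide +kernel)
  have t1 := (S.tr8 h2 hw (b := 0x8001) (c := 0x8001) (by decide +kernel)).2.2
  rw [e0.2, bt_id] at t1
  have h5 : ∀ c b, vL c = true → vL b = true → ent 5 (m5 c b) 0 = 1 → ent 5 (m5 b c) 0 = 0 → S.σ c ≠ 1 :=
    fun c b hc hb e1 e2 h => by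
      have := congrFun (congrFun (h3 _ _ (h4 _ hc) (h4 _ hb) h) 0) 0
      change i32 α (ent 5 _ 0) = i32 α (ent 5 _ 0) at this
      rw [e1, e2] at this
      simp [i32] at this
  have h6 : ∀ x n, vL x = true → pw5 x (2 * n + 1) = 0x8001 → m5 (m5 x 0x420) x = 0x420 →
      ((2 * n + 1 : ℕ) : ZMod 3) ≠ 0 → S.σ x ^ (2 * n + 1) = 1 ∧
      finrank (ZMod 3) (fx (S.σ x)) = finrank (ZMod 3) ↥(fx (S.σ x) ⊓ fx (S.σ 0x420)) +
        finrank (ZMod 3) ↥(fx (S.σ x) ⊓ fx (-S.σ 0x420)) ∧ bt ⊤ (S.σ 0x420) ≤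
        (finrank (ZMod 3) ↥(fx (S.σ x) ⊓ fx (S.σ 0x420)) : ℤ) -
        finrank (ZMod 3) ↥(fx (S.σ x) ⊓ fx (-S.σ 0x420)) := fun x n hx e1 e2 hn => by
    have hx := h4 x hx
    have e3 : ∀ k, S.Ok (pw5 x k) ∧ S.σ (pw5 x k) = S.σ x ^ k := fun k => by
      induction k with
      | zero => exact e0
      | succ k ih => exact ⟨(S.mul ih.1 hx).1, (S.mul ih.1 hx).2.trans (by rw [ih.2, pow_succ])⟩
    have e4 : S.σ x ^ (2 * n + 1) = 1 := by rw [← (e3 _).2, e1, e0.2]
    have e5 : S.σ x * S.σ 0x420 * S.σ x = S.σ 0x420 := by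
      rw [← (S.mul hx hw).2, ← (S.mul (S.mul hx hw).1 hx).2, e2]
    refine ⟨e4, split two_ne fun v hv => ⟨mem_fx.2 ?_, ?_⟩, dih hn e4 e5⟩
    · conv_lhs => rw [← mem_fx.1 hv, ← End.mul_apply, ← End.mul_apply, e5]
    · rw [← End.mul_apply, ← (S.mul hw hw).2, show m5 0x420 0x420 = 0x8001 by decide +kernel, e0.2]
      rfl
  obtain ⟨x1, x2, x3⟩ := h6 0x18420 5 (by decide +kernel) (by decide +kernel) (by decide +kernel) (by decide)
  obtain ⟨y1, y2, y3⟩ := h6 0x10420 15 (by decide +kernel) (by decide +kernel) (by decide +kernel) (by decide)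
  have t2 := T8_inv t1
  have t3 := bt_ne (h5 0x420 0x8401 (by decide +kernel) (by decide +kernel) (by decide +kernel)
    (by decide +kernel))
  have x4 := h5 0x18420 0x8401 (by decide +kernel) (by decide +kernel) (by decide +kernel) (by decide +kernel)
  have y4 := h5 0x10420 0x8401 (by decide +kernel) (by decide +kernel) (by decide +kernel) (by decide +kernel)
  obtain ⟨x, hx⟩ := h2 _ (h4 0x18420 (by decide +kernel))
  obtain ⟨y, hy⟩ := h2 _ (h4 0x10420 (by decide +kernel))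
  rw [hx, e8_11 (hx ▸ x1) (hx ▸ x4), ← hx] at x2
  rw [hy, e8_31 (hy ▸ y1) (hy ▸ y4), ← hy] at y2
  let N : End (ZMod 3) V8 := ((El m5 [0x8001] zsL.tail).map S.σ).sum
  have hN : ∀ w, N w = ((El m5 [0x8001] zsL.tail).map fun u => S.σ u w).sum := sum_app _ _
  have := LinearMap.finrank_le_finrank_of_injective (f := (N * S.σ 0xd0ad9).restrict
    (p := fx (S.σ 0x18420) ⊓ fx (S.σ 0x420)) (q := S.W zsL.tail) fun v _ => (hN _).symm ▸ b1 _)
    ((injective_iff_map_eq_zero _).2 fun v hv => Subtype.ext (cert S h4 (fun w => by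
      have := a1 w
      rwa [Submodule.finrank_eq_zero.1 (show finrank (ZMod 3) (S.W zsL) = 0 by omega)] at this)
      (mem_fx.1 v.2.1) (mem_fx.1 v.2.2) ((hN _).symm.trans (congrArg Subtype.val hv))))
  omega

end Cfsg.Agent.H9.B2
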