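import Cfsg.Agent.H9.B2.E8

/-!
Systems of codes attached to subgroups of `E₈(3)`.
-/

set_option autoImplicit false
set_option linter.unusedSectionVars false
set_option linter.unusedSimpArgs false
set_option maxRecDepth 100000

namespace Cfsg.Agent.H9.B2

open Module Matrix Cfsg.Lie Cfsg.Agent.H9.SL2 Cfsg.Agent.H9.Ch

theorem exists_sys {F m G : Type*} [Field F] [Fintype m] [DecidableEq m] [Group G]
    (val : G →* Matrix m m F) (hv : Function.Injective val) {H : Subgroup (chevE8.group (ZMod 3))}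
    (e : H ≃* G ⧸ Subgroup.center G) (d : ℕ → Matrix m m F)
    {mm : ℕ → ℕ → ℕ} (hd : ∀ a b, d (mm a b) = d a * d b) {Z : List ℕ}
    (hZ : ∀ z ∈ Z, ∃ g, val g = d z ∧ ∃ c : F, d z = c • 1) :
    ∃ S : Sys (ZMod 3) V8 mm Z, ∃ φ : G →* End (ZMod 3) V8,
      (∀ g c, val g = d c → S.Ok c ∧ S.σ c = φ g) ∧ (∀ c, S.Ok c → ∃ g, S.σ c = r0 g) ∧
      ∀ c b, S.Ok c → S.Ok b → S.σ c = 1 → d (mm c b) = d (mm b c) := by
  let θ : G →* chevE8.group (ZMod 3) := H.subtype.comp (e.symm.toMonoidHom.comp (QuotientGroup.mk' _))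
  have h1 : ∀ g, r0 (θ g) = 1 ↔ g ∈ Subgroup.center G := fun g => by
    rw [map_eq_one_iff _ r0_inj]; simp [θ]
  obtain ⟨S, h2, h3⟩ := mkSys val hv (r0.comp θ) d hd (Z := Z) fun z hz => by
    obtain ⟨g, h2, c, h3⟩ := hZ z hz
    exact ⟨g, h2, (h1 g).2 (Subgroup.mem_center_iff.2 fun x => hv (by simp [h2, h3]))⟩
  refine ⟨S, _, h2, fun c hc => ?_, fun c b hc hb h => ?_⟩
  · obtain ⟨g, hg⟩ := h3 c hc
    exact ⟨_, (h2 g c hg).2⟩
  · obtain ⟨g, hg⟩ := h3 c hc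
    obtain ⟨x, hx⟩ := h3 b hb
    rw [hd, hd, ← hg, ← hx, ← map_mul, ← map_mul,
      Subgroup.mem_center_iff.1 ((h1 g).1 ((h2 g c hg).2.symm.trans h))]

variable {mm : ℕ → ℕ → ℕ} {Z : List ℕ} (S : Sys (ZMod 3) V8 mm Z)

theorem Sys.tr8 (hS : ∀ c, S.Ok c → ∃ g, S.σ c = r0 g) {a b c : ℕ} (ha : S.Ok a)
    (h : (Nat.beq (mm a a) b && Nat.beq (mm b b) c && mem (mm c c) Z) = true) :
    S.Ok b ∧ S.Ok c ∧ (bt ⊤ (S.σ a), bt ⊤ (S.σ b), bt ⊤ (S.σ c)) ∈ T8 := by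
  simp only [Bool.and_eq_true, Nat.beq_eq] at h
  obtain ⟨⟨rfl, rfl⟩, h⟩ := h
  obtain ⟨g, hg⟩ := hS a ha
  have h1 := S.mul ha ha
  have h2 := S.mul h1.1 h1.1
  have h3 := (S.mul h2.1 h2.1).2.symm.trans (S.cen _ (mem_sound h)).2
  have h4 : S.σ (mm a a) = r0 g ^ 2 := by rw [h1.2, hg, sq]
  have h5 : S.σ (mm (mm a a) (mm a a)) = r0 g ^ 4 := by rw [h2.2, h4, ← pow_add]
  rw [h5, ← pow_add] at h3
  rw [h5, h4, hg]
  exact ⟨h1.1, h2.1, e8_8 h3⟩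

theorem T8_inv {t : ℤ} (h : (t, 248, 248) ∈ T8) : t = -8 ∨ t = 24 ∨ t = 248 := by
  simp only [T8, List.mem_cons, Prod.mk.injEq, List.not_mem_nil, or_false] at h
  omega

theorem two_ne : (2 : ZMod 3) ≠ 0 := by decide

theorem bt_ne {f : End (ZMod 3) V8} (h : f ≠ 1) : bt ⊤ f ≠ 248 :=
  fun e => h (eq_one_of_bt (by rw [e, finrank_V8]; rfl))

theorem bt_id : bt ⊤ (1 : End (ZMod 3) V8) = 248 := by
  rw [bt_one two_ne, finrank_top, finrank_V8]; rfl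

end Cfsg.Agent.H9.B2
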