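import Cfsg.Agent.H9.B2.Link
import Cfsg.Prelude.Def_Classical

/-!
`E₈(3)` has no subgroup `PSp₆(3)`.
-/

set_option autoImplicit false
set_option linter.unusedSectionVars false
set_option linter.unusedSimpArgs false
set_option maxRecDepth 100000

namespace Cfsg.Agent.H9.B2

open Module Matrix Cfsg.Lie Cfsg.Agent.H9.SL2 Cfsg.Agent.H9.Ch

/-- A central series. -/
def zsP : List ℕ := [nat_lit 0x810108080410208002, nat_lit 0x400080200010002008, nat_lit 0x400108042010208082, nat_lit 0x10008080800100002,
  nat_lit 0x400008002010100040, nat_lit 0x400100080010004002, nat_lit 0x400200080010008002]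

/-- Class representatives. -/
def rpP : List ℕ := [nat_lit 0x400100040010004001, nat_lit 0x10040004800001200, nat_lit 0x800004001020200080, nat_lit 0x400200080010008002,
  nat_lit 0x10208081800204041]

/-- Conjugating elements. -/
def ctP : List ℕ := [nat_lit 0x2000800200080020008, nat_lit 0x200080020008002000b, nat_lit 0xc8810a0413080143, nat_lit 0x80249048082050210b,
  nat_lit 0x200080020008002000a, nat_lit 0x4001008808100220242, nat_lit 0x10004041210080040a, nat_lit 0x210044825200141120a,
  nat_lit 0xb0840c04040a5102, nat_lit 0x414022020200880902, nat_lit 0x20208080000a100022, nat_lit 0x2148a29202051230a2,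
  nat_lit 0x100228a50904448a492, nat_lit 0x100050a410044410312, nat_lit 0x82040808002020c002, nat_lit 0x40300280824012012,
  nat_lit 0x2100c3145200004802a, nat_lit 0x400004001410082020a, nat_lit 0x2080008842100410802, nat_lit 0x2100200824100408022,
  nat_lit 0x2000028048080a51232, nat_lit 0x2000c00a2a081248a02, nat_lit 0x2000a48c50080240442, nat_lit 0x100201022000208042,
  nat_lit 0x200080020008002000c, nat_lit 0x540cd2c8a9340152424, nat_lit 0x115128152b20a34b10c, nat_lit 0x543324d032328310b4,
  nat_lit 0x1292ad3494850cb0154, nat_lit 0x22b28ca8150c82ab2cc, nat_lit 0x248440900428a280044, nat_lit 0x244c0422508ab082a8c,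
  nat_lit 0x53249249402084133, nat_lit 0xc3412ca0004a004a53, nat_lit 0x210144102a001208232, nat_lit 0x8121082c00142024a,
  nat_lit 0x2101408a44100828452, nat_lit 0x2100a51200080a28032, nat_lit 0xc2944b4c8244cd544b, nat_lit 0x100c52135022501480b,
  nat_lit 0x2000800200080020009, nat_lit 0x8004000c000800401, nat_lit 0x100209022000210821, nat_lit 0x2000411020080408821,
  nat_lit 0x2000210840080411041, nat_lit 0x100408842000209041, nat_lit 0x100020402001000011, nat_lit 0x100800012000020201,
  nat_lit 0x2001250222081010c52, nat_lit 0x4100448a22001411032, nat_lit 0xc0a4b4cc0454928d43, nat_lit 0x432c8b520a14554103,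
  nat_lit 0x4080810424000c50c2a, nat_lit 0x4100c30a50100c00052, nat_lit 0x234528c90c23542b23, nat_lit 0xa20b0c448252b0d243,
  nat_lit 0x4000008840100401041, nat_lit 0x2000820010080840201, nat_lit 0x100210042000410801, nat_lit 0x80408044000208801,
  nat_lit 0x2001040400081020011, nat_lit 0x2001040200081020009, nat_lit 0x81000414000040409, nat_lit 0x4000210800100410021,
  nat_lit 0x11120940204905102, nat_lit 0x202081040008080042, nat_lit 0x402042020213142922, nat_lit 0x4011410c04141220a2,
  nat_lit 0x494b4850904a424a2b4, nat_lit 0x4d10a08d28ca8a440b4, nat_lit 0x80822a101240a24104, nat_lit 0x35102c5123254c95044,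
  nat_lit 0x4121208c0200942142, nat_lit 0x40808082020c081002, nat_lit 0x21304504000d103082, nat_lit 0x4011050c00148a1082,
  nat_lit 0x4b4b033114a112ca454, nat_lit 0x52ccb3413054d2a3314, nat_lit 0xd204a95321534a28ac, nat_lit 0x244924d554b28a43324,
  nat_lit 0x102009451100249008a, nat_lit 0x4251200880400a30a, nat_lit 0x100000a000840414082, nat_lit 0x2420440100429448a,
  nat_lit 0x212ccab4432143282b4, nat_lit 0x28cacb2a2154cc09094, nat_lit 0x414d512550c8ac2cb54, nat_lit 0x52b215330c832aa512c,
  nat_lit 0x112b04c1535502c2b44, nat_lit 0x48004150020c02010a4, nat_lit 0xb5544a2d2b20554cd4, nat_lit 0x28acd1110ac552b34a4,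
  nat_lit 0x822000208842080402, nat_lit 0x822214211004112092, nat_lit 0x20014101040212002, nat_lit 0x82451240100440430a,
  nat_lit 0x4080401004000210841, nat_lit 0x2100400802000211021, nat_lit 0x2100008022000411041, nat_lit 0x2000820014080020209,
  nat_lit 0x2100200042000408821, nat_lit 0x2100200022000409041, nat_lit 0x408084000c000800411, nat_lit 0x2100209022000009001,
  nat_lit 0x4080040208100840401, nat_lit 0x100410842100200021, nat_lit 0x2100408820080011001, nat_lit 0x100009002100409041,
  nat_lit 0x100201002100209041, nat_lit 0x100208822100401001, nat_lit 0x100408842100010021, nat_lit 0x2100840008080020409,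
  nat_lit 0x2100009042000410041, nat_lit 0x210004000a000820411, nat_lit 0x2100800402001020211, nat_lit 0x4000201022100409001,
  nat_lit 0x2100020202001040409, nat_lit 0x4000401042100210041, nat_lit 0x2000009024080411001, nat_lit 0x4000011022100209001,
  nat_lit 0x80400824080411001, nat_lit 0x100209002100401041, nat_lit 0x80010844080210021, nat_lit 0x2100011020080210041,
  nat_lit 0x2101000010081040211, nat_lit 0x4080010820100211001, nat_lit 0x2100410020080201021, nat_lit 0x100200842100208021]

/-- The product. -/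
noncomputable def m3 : ℕ → ℕ → ℕ := mmul 2 6 dot3

/-- The centre. -/
def ZP : List ℕ := [nat_lit 0x400100040010004001, nat_lit 0x800200080020008002]

/-- The test for symplectic matrices. -/
noncomputable def vP (c : ℕ) : Bool :=
  Nat.beq (m3 (m3 c (nat_lit 0x10004001800200080)) (trp 2 6 id c)) (nat_lit 0x10004001800200080)

/-- The matrices. -/
def dP : ℕ → Matrix (Fin 3 ⊕ Fin 3) (Fin 3 ⊕ Fin 3) (ZMod 3) := dec Nat.cast 2 finSumFinEquiv

theorem dP_mul (a b : ℕ) : dP (m3 a b) = dP a * dP b := dec_mmul _ (fun f g _ _ => dot3_spec f g) a b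

theorem vP_sound {c : ℕ} (h : vP c = true) : dP c ∈ symplecticGroup (Fin 3) (ZMod 3) := by
  have h1 : dP 0x10004001800200080 = J (Fin 3) (ZMod 3) := by decide +kernel
  have h2 : dP (trp 2 6 id c) = (dP c)ᵀ := Matrix.ext fun i j => dec_trp _ (fun _ h => h) c i j
  have := congrArg dP (Nat.eq_of_beq_eq_true h)
  rwa [dP_mul, dP_mul, h1, h2, ← SymplecticGroup.mem_iff] at this

theorem chkP1 : good m3 ZP (0x400100040010004001 :: zsP) zsP = true := by decide +kernel

theorem chkP2 : cj m3 ZP vP id (rpP.getD · 0x400100040010004001) (Cs m3 zsP 0x400100040010004001) ctP = true := by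
  decide +kernel

theorem finP {x a b c t : ℤ} (h1 : (a, b, c) ∈ T8) (h2 : t = -8 ∨ t = 24 ∨ t = 248) (h3 : c ≠ 248)
    (h : 2 ^ 7 * x = 248 + 48 * a + 44 * b + 11 * c + 24 * t) : False := by
  simp only [T8, List.mem_cons, Prod.mk.injEq, List.not_mem_nil, or_false] at h1
  omega

theorem noSp {H : Subgroup (chevE8.group (ZMod 3))} (e : H ≃* PSp 3 (ZMod 3)) : False := by
  obtain ⟨S, φ, h1, h2, h3⟩ := exists_sys (symplecticGroup (Fin 3) (ZMod 3)).subtype Subtype.val_injective
    e dP dP_mul (Z := ZP) (by
      simp only [ZP, List.forall_mem_cons, List.not_mem_nil, false_imp_iff, implies_true, and_true]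
      exact ⟨⟨⟨_, vP_sound (by decide +kernel)⟩, rfl, 1, by decide +kernel⟩,
        ⟨⟨_, vP_sound (by decide +kernel)⟩, rfl, -1, by decide +kernel⟩⟩)
  have h4 : ∀ c, vP c = true → S.Ok c := fun c h => (h1 ⟨_, vP_sound h⟩ c rfl).1
  have h5 : ∀ c ∈ 0x400100040010004001 :: zsP, S.Ok c := fun c hc =>
    h4 c (List.all_eq_true.1 (by decide +kernel) c hc)
  have h6 := ((S.avg two_ne h5 chkP1).2.2 _ (.of List.mem_cons_self)).2
  have h7 : ∀ k < 8, vP (rpP.getD k 0x400100040010004001) = true := by decide +kernel
  rw [S.cj h4 (fun k hk => h4 _ (h7 k hk)) (S.cs (fun z hz => h5 z (List.mem_cons_of_mem _ hz))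
    (h5 _ List.mem_cons_self)) chkP2, (S.cen _ List.mem_cons_self).2, bt_one two_ne] at h6
  have h8 : ∀ k < 8, (ctP.map (· % 8)).count k = [1, 48, 44, 11, 24].getD k 0 := by decide +kernel
  rw [Finset.sum_congr rfl fun k hk => by rw [h8 k (Finset.mem_range.1 hk)]] at h6
  have h9 := (S.tr8 h2 (h4 _ (h7 1 (by norm_num))) (b := rpP.getD 2 0x400100040010004001)
    (c := rpP.getD 3 0x400100040010004001)    (by decide +kernel)).2.2
  have h10 := (S.tr8 h2 (h4 _ (h7 4 (by norm_num))) (b := ZP.getD 1 0) (c := ZP.getD 0 0)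
    (by decide +kernel)).2.2
  have h11 := bt_ne fun h => absurd (h3 _ _ (h4 _ (h7 3 (by norm_num)))
    (h4 (ctP.getD 2 0 / 8) (by decide +kernel)) h)
    (by decide +kernel)
  have e1 := (S.cen (ZP.getD 1 0) (by simp [ZP])).2
  have e2 := (S.cen (ZP.getD 0 0) (by simp [ZP])).2
  rw [e1, e2, bt_id] at h10
  simp only [Finset.sum_range_succ, Finset.sum_range_zero, List.getD_cons_succ,
    List.getD_cons_zero, List.getD_nil, show zsP.length = 7 from rfl] at h6
  rw [show S.σ (rpP.getD 0 0x400100040010004001) = 1 from e2, bt_id] at h6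
  exact finP h9 (T8_inv h10) h11 (h6.trans (by push_cast; ring))

end Cfsg.Agent.H9.B2
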