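import Cfsg.Agent.H9.B2.A6
import Cfsg.Agent.H9.B2.DatU
import Cfsg.Prelude.Def_Classical

/-!
`E₈(3)` has no subgroup `U₄(3)`.
-/

set_option autoImplicit false
set_option linter.unusedSectionVars false
set_option linter.unusedSimpArgs false
set_option linter.style.haveILetI false
set_option maxRecDepth 100000

namespace Cfsg.Agent.H9.B2

open Module Matrix Cfsg.Lie Cfsg.Agent.H9.SL2 Cfsg.Agent.H9.Ch
open scoped MatrixGroups

theorem graph_hom {A B : Type*} [Group A] [Group B] [Finite A] [Finite B] {s : Set (A × B)}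
    {P : A × B → Prop} (h1 : P 1) (h2 : ∀ x, P x → ∀ y ∈ s, P (x * y)) (h3 : ∀ b, P (1, b) → b = 1)
    (h4 : ∀ a, a ∈ (Subgroup.closure s).map (MonoidHom.fst A B)) :
    ∃ ψ : A →* B, (∀ a, P (a, ψ a)) ∧ ∀ x ∈ Subgroup.closure s, ψ x.1 = x.2 := by
  have h5 : ∀ x ∈ Subgroup.closure s, P x := fun x hx => by
    replace hx : x ∈ Submonoid.closure s := Subgroup.closure_toSubmonoid_of_finite (s := s) ▸ hx
    induction hx using Submonoid.closure_induction_right with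
    | one => exact h1
    | mul_right x _ y hy ih => exact h2 x ih y hy
  let e := MulEquiv.ofBijective ((MonoidHom.fst A B).comp (Subgroup.closure s).subtype)
    ⟨(injective_iff_map_eq_one _).2 fun ⟨⟨a, b⟩, hx⟩ h => by
      obtain rfl : a = 1 := h
      exact Subtype.ext (Prod.ext rfl (h3 b (h5 _ hx))), fun a => by
      obtain ⟨x, hx, rfl⟩ := h4 a
      exact ⟨⟨x, hx⟩, rfl⟩⟩
  refine ⟨(MonoidHom.snd A B).comp ((Subgroup.closure s).subtype.comp e.symm.toMonoidHom), fun a => ?_,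
    fun x hx => congrArg (·.1.2) (e.symm_apply_apply ⟨x, hx⟩)⟩
  have := h5 _ (e.symm a).2
  rwa [← Prod.mk.eta (p := (e.symm a).1), show (e.symm a).1.1 = a from e.apply_symm_apply a] at this

variable {F : Type*} [Field F] [CharP F 3] {i : F}

theorem sq_add_sq : ∀ a b : ZMod 3, a ^ 2 + b ^ 2 = 0 → a = 0 ∧ b = 0 := by decide

theorem i9_bij [Fintype F] (hF : Fintype.card F = 9) (hi : i * i = -1) :
    Function.Bijective fun p : ZMod 3 × ZMod 3 => ((p.1.val : F) + p.2.val * i) := by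
  haveI : Fact (Nat.Prime 3) := ⟨Nat.prime_three⟩
  refine (Fintype.bijective_iff_injective_and_card _).2 ⟨fun p q h => ?_, by simp [hF]⟩
  let φ := ZMod.castHom (dvd_refl 3) F
  have h1 : ∀ a : ZMod 3, (a.val : F) = φ a := fun a => by simp [φ]
  simp only [h1] at h
  have h2 : φ ((p.1 - q.1) ^ 2 + (p.2 - q.2) ^ 2) = 0 := by
    simp only [map_add, map_pow, map_sub]
    linear_combination (φ p.1 - φ q.1 - (φ p.2 - φ q.2) * i) * h + (φ p.2 - φ q.2) ^ 2 * hi
  have := sq_add_sq _ _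
    ((map_eq_zero_iff φ φ.injective).1 h2)
  exact Prod.ext (sub_eq_zero.1 this.1) (sub_eq_zero.1 this.2)

theorem i9_inj [Fintype F] (hF : Fintype.card F = 9) (hi : i * i = -1) {x y : ℕ}
    (hx : x ∈ [0, 1, 2, 4, 5, 6, 8, 9, 10]) (hy : y ∈ [0, 1, 2, 4, 5, 6, 8, 9, 10])
    (h : i9 i x = i9 i y) : x = y := by
  have := (i9_bij hF hi).1 (a₁ := ((x % 4 : ℕ), (x / 4 : ℕ))) (a₂ := ((y % 4 : ℕ), (y / 4 : ℕ)))
    (by simpa only [ZMod.val_natCast, ← CharP.cast_eq_mod, i9] using h)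
  exact (show ∀ x ∈ [0, 1, 2, 4, 5, 6, 8, 9, 10], ∀ y ∈ [0, 1, 2, 4, 5, 6, 8, 9, 10],
    (((x % 4 : ℕ), (x / 4 : ℕ)) : ZMod 3 × ZMod 3) = (((y % 4 : ℕ), (y / 4 : ℕ)) : ZMod 3 × ZMod 3) → x = y
    by decide +kernel) x hx y hy this

theorem ll_add (a b : F) : ll (a + b) = ll a * ll b := by
  ext i j; fin_cases i <;> fin_cases j <;> simp [mul_apply]

theorem ll_pow (a : F) (n : ℕ) : ll a ^ n = ll (n * a) := by
  induction n with
  | zero => ext i j; fin_cases i <;> fin_cases j <;> simp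
  | succ n ih => rw [pow_succ, ih, ← ll_add, Nat.cast_succ, add_mul, one_mul]

theorem dec_scalar {ι : ℕ → F} (h0 : ι 0 = 0) {w n z x : ℕ}
    (h : ∀ p < n * n, ent w z p = if p / n = p % n then x else 0) :
    dec ι w (Equiv.refl (Fin n)) z = ι x • 1 := by
  ext a b
  simp only [dec, of_apply, Equiv.refl_apply, h _ (idx a b).1, (idx a b).2, Fin.val_inj, Matrix.smul_apply,
    Matrix.one_apply]
  split_ifs <;> simp [h0]

/-- The matrices. -/
def dS (i : F) : ℕ → Matrix (Fin 4) (Fin 4) F := dec (i9 i) 4 (Equiv.refl _)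

/-- The matrices. -/
def d2 (i : F) : ℕ → Matrix (Fin 2) (Fin 2) F := dec (i9 i) 4 (Equiv.refl _)

theorem dS_mul (hi : i * i = -1) (a b : ℕ) : dS i (m9 a b) = dS i a * dS i b :=
  dec_mmul _ (fun f g _ _ => dot9_spec hi 4 f g) a b

theorem d2_mul (hi : i * i = -1) (a b : ℕ) : d2 i (m2 a b) = d2 i a * d2 i b :=
  dec_mmul _ (fun f g _ _ => dot9_spec hi 2 f g) a b

theorem dS_one : dS i 0x1000010000100001 = 1 :=
  (dec_scalar (x := 1) (by simp [i9]) (by decide +kernel)).trans (by simp [i9])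

variable (F) in
/-- The embedding in the matrices. -/
def valU : SU 4 F 3 →* Matrix (Fin 4) (Fin 4) F := (slToMat 4 F).comp (SU 4 F 3).subtype

theorem mem_SU {A : Matrix (Fin 4) (Fin 4) F} (h1 : A.det = 1) (h2 : (A.map (frobenius F 3))ᵀ * A = 1) :
    ∃ g, valU F g = A := by
  refine ⟨⟨⟨A, h1⟩, fun u v => ?_⟩, rfl⟩
  have h3 : ∀ u v : Fin 4 → F, hermForm 4 F 3 u v = (frobenius F 3 ∘ v) ⬝ᵥ u := fun u v =>
    Finset.sum_congr rfl fun _ _ => mul_comm _ _
  change hermForm 4 F 3 (A *ᵥ u) (A *ᵥ v) = _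
  rw [h3, h3, show frobenius F 3 ∘ (A *ᵥ v) = A.map (frobenius F 3) *ᵥ (frobenius F 3 ∘ v) from
    funext fun j => RingHom.map_mulVec _ _ _ j, ← vecMul_transpose, dotProduct_mulVec, vecMul_vecMul, h2,
    vecMul_one]

theorem vU_sound [Fintype F] (hF : Fintype.card F = 9) (hi : i * i = -1) {c : ℕ} (h : vU c = true) :
    ∃ g, valU F g = dS i c := by
  simp only [vU, Bool.and_eq_true, Nat.beq_eq, frc_eq] at h
  have h1 := congrArg (fun x => (dS i x).det) h.2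
  have h2 := congrArg (dS i) h.1
  simp only [dS_mul hi, det_mul, show dS i (nat_lit 0x1000010000100001) = 1 from dS_one, det_one] at h1 h2
  refine mem_SU (by rw [← FiniteField.pow_card (dS i c).det, hF, ← h1]; ring) (h2 ▸ congrArg (· * _) ?_)
  ext a b
  rw [dS, dec_trp _ fun x _ => by unfold cj9; omega, cj9, i9_add]
  simp only [transpose_apply, map_apply, dec, of_apply, i9, map_add, map_mul, map_natCast, Equiv.refl_apply,
    Nat.cast_mul, Nat.cast_ofNat]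
  rw [frobenius_def]
  linear_combination (ent 4 c (4 * b + a) / 4 : ℕ) * i * (hi - (CharP.cast_eq_zero F 3 : (3 : F) = 0))

theorem finU {t a b c D x y : ℤ} {n0 n4 n2 n8 : ℕ} (h1 : (c, a, t) ∈ T8) (h2 : (b, t, 248) ∈ T8)
    (h3 : t ≠ 248) (h4 : 16 * D = 248 + 15 * t) (h5 : 16 * x = 8 * c + 8 * b)
    (h6 : 16 * y = 4 * a + 4 * t + 8 * b) (h7 : D = n0 + 4 * n4 + 6 * n2 + 9 * n8)
    (h8 : y = n0 - 2 * n2 + n8) (h9 : x = n0 - 2 * n4 + 2 * n2 + n8) : False := by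
  simp only [T8, List.mem_cons, Prod.mk.injEq, List.not_mem_nil, or_false] at h1 h2
  omega

theorem exists_psi [Fintype F] (hF : Fintype.card F = 9) (hi : i * i = -1) (S : Sys (ZMod 3) V8 m9 ZU)
    (φ : SU 4 F 3 →* End (ZMod 3) V8) (h1 : ∀ g c, valU F g = dS i c → S.Ok c ∧ S.σ c = φ g)
    (h9 : ∀ z ∈ zsU, S.Ok z) : ∃ ψ : SL(2, F) →* SU 4 F 3, ∃ u : Fˣ, IsPrimitiveRoot (u : F) 8 ∧
      (∀ g, ∀ v ∈ S.W zsU, φ (ψ g) v ∈ S.W zsU) ∧ φ (ψ (tt u)) = S.σ (rU 4) := by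
  have h3 : (3 : F) = 0 := CharP.cast_eq_zero F 3
  have hv : Function.Injective (valU F) := fun a b h => Subtype.ext (Subtype.ext h)
  choose hh hh1 using fun k : Fin 4 => vU_sound hF hi (chkU5 k k.2).1
  let gg : Fin 4 → SL(2, F) := ![uu 1, uu i, ll 1, ll i]
  have hg : ∀ k, (gg k).1 = d2 i (g2U.getD k 0) := fun k => by
    ext a b
    fin_cases k <;> fin_cases a <;> fin_cases b <;> simp [gg, d2, dec, g2U, ent_eq, i9]
  have d1 : d2 i 0x1001 = 1 := (dec_scalar (x := 1) (by simp [i9]) (by decide +kernel)).trans (by simp [i9])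
  have hm : ∀ k, (gg k, hh k) ∈ Subgroup.closure (Set.range fun k => (gg k, hh k)) :=
    fun k => Subgroup.subset_closure ⟨k, rfl⟩
  let P : SL(2, F) × SU 4 F 3 → Prop := fun x =>
    (∃ e ∈ TU, x.1.1 = d2 i (e % 65536) ∧ valU F x.2 = dS i (e / 65536)) ∧ ∀ v ∈ S.W zsU, φ x.2 v ∈ S.W zsU
  have r1 : P 1 := ⟨⟨0x10000100001000011001, by decide +kernel, d1.symm, (map_one _).trans dS_one.symm⟩,
      fun v hv => by simpa using hv⟩
  have r2 : ∀ x, P x → ∀ y ∈ Set.range fun k => (gg k, hh k), P (x * y) := by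
    rintro x ⟨⟨c, hc, q1, q2⟩, q3⟩ _ ⟨k, rfl⟩
    have q4 : grU k = true := by fin_cases k; exacts [chkU30, chkU31, chkU32, chkU33]
    have q5 := mem_sound (List.all_eq_true.1 q4 c hc)
    have q6 : m2 (c % 65536) (g2U.getD k 0) < 65536 := by
      simp only [m2, mmul, frc_eq]
      exact (ent_pack (fun p => (dot9_spec hi _ _ _).1) _).1
    rw [frc_eq, id, Nat.add_eq, Nat.mul_eq, mod_eq, div_eq] at q5
    have q7 := h1 _ _ (hh1 k)
    refine ⟨⟨_, q5, ?_, ?_⟩, fun v hv => ?_⟩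
    · rw [Nat.add_mul_mod_self_left, Nat.mod_eq_of_lt q6, d2_mul hi, ← q1, ← hg]; rfl
    · rw [Nat.add_mul_div_left _ _ (by norm_num), Nat.div_eq_of_lt q6, zero_add, dS_mul hi, ← q2, ← hh1,
        ← map_mul]; rfl
    · rw [Prod.snd_mul, map_mul, End.mul_apply, ← q7.2]
      exact q3 _ (S.mem_W.2 fun z hz => by
        rw [← End.mul_apply, ← (S.mul (h9 z hz) q7.1).2, S.comm h9 q7.1 ((chkU5 k k.2).2 z hz) hv])
  have r3 : ∀ b, P (1, b) → b = 1 := by
    rintro b ⟨⟨c, hc, q1, q2⟩, -⟩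
    rcases chkU4 c hc with h | ⟨p, hp, q3, q4⟩
    · exact hv (by rw [q2, h, map_one]; exact dS_one)
    have q5 := congrFun (congrFun (d1.trans q1) ⟨p / 2, by omega⟩) ⟨p % 2, by omega⟩
    simp only [d2, dec, of_apply, Equiv.refl_apply, Nat.div_add_mod] at q5
    refine absurd (i9_inj hF hi q3 ?_ q5.symm) q4
    interval_cases p <;> decide +kernel
  obtain ⟨ψ, p1, p2⟩ := graph_hom r1 r2 r3 fun g => sl2_gen (fun x => by
    obtain ⟨⟨a, b⟩, rfl⟩ := (i9_bij hF hi).2 x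
    rw [uu_add, ← uu_pow, ← mul_one (a.val : F), ← uu_pow]
    exact mul_mem (pow_mem (Subgroup.mem_map_of_mem _ (hm 0)) _) (pow_mem (Subgroup.mem_map_of_mem _ (hm 1)) _))
    (fun x => by
    obtain ⟨⟨a, b⟩, rfl⟩ := (i9_bij hF hi).2 x
    rw [ll_add, ← ll_pow, ← mul_one (a.val : F), ← ll_pow]
    exact mul_mem (pow_mem (Subgroup.mem_map_of_mem _ (hm 2)) _) (pow_mem (Subgroup.mem_map_of_mem _ (hm 3)) _)) g
  let u : Fˣ := ⟨2 + i, 1 + i, by linear_combination hi + i * h3, by linear_combination hi + i * h3⟩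
  have hu : (u : F) ^ 2 ^ 2 = -1 := by
    simp only [u]; linear_combination (i ^ 2 + 8 * i + 23) * hi + (8 * i - 2) * h3
  have hu2 : orderOf (u : F) = 2 ^ (2 + 1) := orderOf_eq_prime_pow (by
    rw [hu]; intro h; exact one_ne_zero (α := F) (by linear_combination h3 + h)) (by
    rw [pow_succ 2, pow_mul, hu]; simp)
  have p3 := p2 _ (mul_mem (mul_mem (mul_mem (mul_mem (mul_mem (mul_mem (hm 0) (hm 0)) (hm 2)) (hm 3))
    (hm 0)) (hm 3)) (hm 0))
  have p4 : gg 0 * gg 0 * gg 2 * gg 3 * gg 0 * gg 3 * gg 0 = tt u := Subtype.ext (by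
    simp only [Matrix.SpecialLinearGroup.coe_mul, hg, ← d2_mul hi]
    refine (congrArg (d2 i) (show _ = 0x6005 by decide +kernel)).trans ?_
    ext a b
    fin_cases a <;> fin_cases b <;> simp [u, d2, dec, ent_eq, i9])
  simp only [Prod.mk_mul_mk, p4] at p3
  refine ⟨ψ, u, by simpa [hu2] using IsPrimitiveRoot.orderOf (u : F), fun g => (p1 g).2, (h1 _ _ ?_).2.symm⟩
  simp only [p3, map_mul, hh1, ← dS_mul hi]
  exact congrArg _ (by decide +kernel)

theorem noU [Fintype F] (hF : Fintype.card F = 9) (hi : i * i = -1)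
    {H : Subgroup (chevE8.group (ZMod 3))} (e : H ≃* PSU 4 F 3) : False := by
  have h3 : (3 : F) = 0 := CharP.cast_eq_zero F 3
  have hv : Function.Injective (valU F) := fun a b h => Subtype.ext (Subtype.ext h)
  obtain ⟨S, φ, h1, h2, h4⟩ := exists_sys (valU F) hv e (dS i) (dS_mul hi) (Z := ZU) fun z hz => by
    have h1 : ∀ z ∈ ZU, ∀ p < 4 * 4, ent 4 z p = if p / 4 = p % 4 then z % 16 else 0 := by decide +kernel
    have h2 : dS i z = _ := dec_scalar (by simp [i9]) (h1 z hz)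
    have h4 : i9 i (z % 16) ^ 4 = 1 := by
      have h5 : i ^ 4 = 1 := by linear_combination (i * i - 1) * hi
      have : ∀ z ∈ ZU, z % 16 = 1 ∨ z % 16 = 4 ∨ z % 16 = 2 ∨ z % 16 = 8 := by decide +kernel
      rcases this z hz with h | h | h | h <;> simp [h, i9, h5, mul_pow] <;> linear_combination 5 * h3
    obtain ⟨g, hg⟩ := mem_SU (A := dS i z) (by simp [h2, h4]) (by
      rw [h2, Matrix.map_smul' _ _ _ (map_mul _), Matrix.map_one _ (map_zero _) (map_one _), transpose_smul,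
        transpose_one, smul_mul_smul_comm, mul_one, frobenius_def, ← pow_succ, h4, one_smul])
    exact ⟨g, hg, _, h2⟩
  have h5 : ∀ c, vU c = true → S.Ok c := fun c h => by
    obtain ⟨g, hg⟩ := vU_sound hF hi h
    exact (h1 g c hg).1
  have h6 : ∀ d, vlU2 d = true → S.Ok (evU d) := fun d h => by
    rw [vlU2, Bool.and_eq_true] at h
    exact (S.mul (h5 _ h.1) (h5 _ h.2)).1
  have h7 : ∀ c ∈ zsU ++ rpU.tail ++ [rU 4], S.Ok c := fun c hc => by
    obtain ⟨d, hd, rfl⟩ := List.mem_map.1 (chkU6.2 ▸ hc)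
    exact h6 d (List.all_eq_true.1 chkU6.1 d hd)
  have e0 := S.cen (rU 0) List.mem_cons_self
  have h8 : ∀ k < 8, S.Ok (rU k) := fun k hk => ((show ∀ k < 8, rU k = rU 0 ∨
    rU k ∈ zsU ++ rpU.tail ++ [rU 4] by decide +kernel) k hk).elim (fun h => h ▸ e0.1) (h7 _)
  have h9 : ∀ z ∈ zsU, S.Ok z := fun z hz => h7 z (by simp [hz])
  have hs := h8 4 (by norm_num)
  have hs2 := S.mul hs hs
  obtain ⟨-, -, h10⟩ := S.avg two_ne (gs := rU 0 :: rU 4 :: zsU) (by simpa [e0.1, hs] using h9) chkU1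
  have g4 : Gen m9 (rU 0 :: rU 4 :: zsU) (rU 4) := .of (by simp)
  have a0 := (h10 _ (.of List.mem_cons_self)).2
  have a1 := (h10 _ g4).2
  have a2 := (h10 _ (g4.mul g4)).2
  rw [S.cj h6 h8 (S.cs h9 e0.1) chkU2.1, e0.2, bt_one two_ne] at a0
  rw [S.cj h6 h8 (S.cs h9 hs) chkU2.2.1] at a1
  rw [S.cj h6 h8 (S.cs h9 hs2.1) chkU2.2.2.1, hs2.2] at a2
  have a3 := S.cj h6 h8 (by simpa using hs2.1) chkU2.2.2.2
  have c0 : ∀ k < 8, (ct0.map (· % 8)).count k = [1, 0, 0, 15].getD k 0 ∧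
      (ct1.map (· % 8)).count k = [0, 8, 0, 0, 8].getD k 0 ∧
      (ct2.map (· % 8)).count k = [0, 0, 4, 4, 8].getD k 0 ∧
      (ct3.map (· % 8)).count k = [0, 0, 0, 1].getD k 0 := by decide +kernel
  rw [Finset.sum_congr rfl fun k hk => by rw [(c0 k (Finset.mem_range.1 hk)).1]] at a0
  rw [Finset.sum_congr rfl fun k hk => by rw [(c0 k (Finset.mem_range.1 hk)).2.1]] at a1
  rw [Finset.sum_congr rfl fun k hk => by rw [(c0 k (Finset.mem_range.1 hk)).2.2.1]] at a2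
  rw [Finset.sum_congr rfl fun k hk => by rw [(c0 k (Finset.mem_range.1 hk)).2.2.2]] at a3
  simp only [Finset.sum_range_succ, Finset.sum_range_zero, List.getD_cons_succ, List.getD_cons_zero,
    List.getD_nil, show zsU.length = 4 from rfl, e0.2, bt_id, List.map_cons, List.map_nil, List.sum_cons,
    List.sum_nil, Nat.cast_zero, zero_mul, add_zero, zero_add, Nat.cast_one, one_mul, Nat.cast_ofNat,
    show (2 : ℤ) ^ 4 = 16 from rfl] at a0 a1 a2 a3
  have t1 := (S.tr8 h2 (h8 1 (by norm_num)) (b := rU 2) (c := rU 3) (by decide +kernel)).2.2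
  have t2 := (S.tr8 h2 hs (b := m9 (rU 4) (rU 4)) (c := ZU.getD 2 0) (by decide +kernel)).2.2
  have e2 := (S.cen (ZU.getD 2 0) (by simp [ZU])).2
  rw [a3, e2, bt_id] at t2
  have t3 := bt_ne fun h => by
    have := congrFun (congrFun (h4 _ 0x8599490814881a20 (h8 3 (by norm_num)) (h5 _ (by decide +kernel)) h) 2) 3
    change i9 i (ent 4 _ 11) = i9 i (ent 4 _ 11) at this
    rw [show ent 4 (m9 (rU 3) 0x8599490814881a20) 11 = 1 by decide +kernel,
      show ent 4 (m9 0x8599490814881a20 (rU 3)) 11 = 0 by decide +kernel] at this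
    simp [i9] at this
  obtain ⟨ψ, u, hu, p1, p5⟩ := exists_psi hF hi S φ h1 h9
  let ρ := Representation.subrepresentation (φ.comp ψ) (S.W zsU) p1
  have p6 : ∀ k, bt ⊤ (ρ (tt u) ^ k) = bt (S.W zsU) (S.σ (rU 4) ^ k) := fun k => by
    rw [← map_pow, ← p5, ← map_pow, ← map_pow]
    exact bt_restrict (p1 _)
  obtain ⟨n0, n4, n2, n8, p7, p8, p9⟩ := a6 hF ρ hu
    (eq_one_of_bt (by
      have := (S.mul hs2.1 hs2.1).2
      rw [show m9 (m9 (rU 4) (rU 4)) (m9 (rU 4) (rU 4)) = ZU.getD 2 0 by decide +kernel, e2, hs2.2] at this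
      rw [p6, show S.σ (rU 4) ^ 4 = 1 by rw [this]; noncomm_ring, bt_one two_ne]))
  rw [p6, sq] at p8
  rw [← pow_one (ρ _), p6, pow_one] at p9
  exact finU t1 t2 t3 a0 a1 a2 (by exact_mod_cast p7) p8 p9

end Cfsg.Agent.H9.B2
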